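import Mathlib
import Cfsg.Agent.Lib.Helper55.Cores

set_option autoImplicit false

/-!
Groups in which abelian subgroups of equal order are conjugate (`BProp`): basic transfer lemmas
and the exclusion of generalized quaternion Sylow 2-subgroups of order at least 16 in the
solvable case (helper53).
-/

namespace Cfsg.Agent.Lib.Helper53.BQuot

/-- Abelian subgroups of equal order are conjugate. -/
def BProp (G : Type*) [Group G] : Prop :=
  ∀ A B : Subgroup G, IsMulCommutative ↥A → IsMulCommutative ↥B → Nat.card ↥A = Nat.card ↥B →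
    ∃ g : G, B = A.map (MulAut.conj g).toMonoidHom

theorem mem_map_conj {G : Type*} [Group G] (A : Subgroup G) (g x : G) :
    x ∈ A.map (MulAut.conj g).toMonoidHom ↔ g⁻¹ * x * g ∈ A := by
  constructor
  · rintro ⟨a, ha, rfl⟩
    have : g⁻¹ * ((MulAut.conj g).toMonoidHom a) * g = a := by
      simp [MulAut.conj_apply, mul_assoc]
    rw [this]; exact ha
  · intro h
    refine ⟨g⁻¹ * x * g, h, ?_⟩
    simp [MulAut.conj_apply, mul_assoc]

theorem BProp.of_equiv {G H : Type*} [Group G] [Group H] (e : G ≃* H) (h : BProp G) :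
    BProp H := by
  intro A B hA hB hAB
  haveI := hA
  haveI := hB
  have hA' : IsMulCommutative ↥(A.map e.symm.toMonoidHom) := inferInstance
  have hB' : IsMulCommutative ↥(B.map e.symm.toMonoidHom) := inferInstance
  have hc : Nat.card ↥(A.map e.symm.toMonoidHom) = Nat.card ↥(B.map e.symm.toMonoidHom) := by
    rw [Subgroup.card_map_of_injective e.symm.injective,
      Subgroup.card_map_of_injective e.symm.injective, hAB]
  obtain ⟨g, hg⟩ := h _ _ hA' hB' hc
  refine ⟨e g, ?_⟩
  ext x
  rw [mem_map_conj]
  have h1 : x ∈ B ↔ e.symm x ∈ B.map e.symm.toMonoidHom := by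
    rw [Subgroup.mem_map_equiv]; simp
  rw [h1, hg, mem_map_conj, Subgroup.mem_map_equiv]
  simp

/-- Conjugacy of preimages gives conjugacy in the quotient. -/
theorem conj_of_comap {G : Type*} [Group G] (M : Subgroup G) [M.Normal]
    (A B : Subgroup (G ⧸ M)) (g : G)
    (h : B.comap (QuotientGroup.mk' M) =
      (A.comap (QuotientGroup.mk' M)).map (MulAut.conj g).toMonoidHom) :
    B = A.map (MulAut.conj (QuotientGroup.mk' M g)).toMonoidHom := by
  ext x
  obtain ⟨y, rfl⟩ := QuotientGroup.mk'_surjective M x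
  rw [mem_map_conj]
  have h1 : QuotientGroup.mk' M y ∈ B ↔ y ∈ B.comap (QuotientGroup.mk' M) := Iff.rfl
  rw [h1, h, mem_map_conj, Subgroup.mem_comap]
  simp

end Cfsg.Agent.Lib.Helper53.BQuot
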