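import Mathlib
import Cfsg.Agent.Lib.Helper55.Cores
import Cfsg.Agent.Lib.Helper53.BQuotA

set_option autoImplicit false

/-!
A finite solvable group in which all cyclic subgroups of order 4 are conjugate has no
generalized quaternion Sylow 2-subgroup of order at least 16 (helper53).
-/

namespace Cfsg.Agent.Lib.Helper53.BQuot

open QuaternionGroup in
theorem quat_bound {G : Type*} [Group G] [Finite G] [Group.IsSolvable G]
    (h4 : ∀ x y : G, orderOf x = 4 → orderOf y = 4 →
      ∃ g : G, Subgroup.zpowers y = (Subgroup.zpowers x).map (MulAut.conj g).toMonoidHom)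
    (P : Sylow 2 G) (k : ℕ) (e : ↥(P : Subgroup G) ≃* QuaternionGroup (2 ^ k)) : k ≤ 1 := by
  by_contra hk
  rw [not_le] at hk
  obtain ⟨n, hn⟩ : ∃ n : ℕ, n = 2 ^ k := ⟨_, rfl⟩
  rw [← hn] at e
  have hn4 : 4 ≤ n := by
    rw [hn]
    calc 4 = 2 ^ 2 := by norm_num
      _ ≤ 2 ^ k := Nat.pow_le_pow_right (by norm_num) hk
  have hn2 : 2 ∣ n := by
    rw [hn]; exact dvd_pow_self 2 (by omega)
  haveI : NeZero n := ⟨by omega⟩
  -- the quotient by the odd core
  obtain ⟨K, hK⟩ : ∃ K : Subgroup G, K = Cfsg.pPrimeCore 2 G := ⟨_, rfl⟩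
  have hKn : K.Normal := hK ▸ Cfsg.pPrimeCore_normal 2 G
  have hKc : (Nat.card K).Coprime 2 := hK ▸ Cfsg.Agent.Lib.Helper55.pPrimeCore_coprime 2 G
  obtain ⟨π, hπ⟩ : ∃ π : G →* G ⧸ K, π = QuotientGroup.mk' K := ⟨_, rfl⟩
  have hπs : Function.Surjective π := hπ ▸ QuotientGroup.mk'_surjective K
  have hπk : ∀ x : G, π x = 1 → x ∈ K := by
    intro x hx
    rw [hπ] at hx
    exact (QuotientGroup.eq_one_iff x).mp hx
  obtain ⟨R, hR⟩ : ∃ R : Subgroup (G ⧸ K), R = Cfsg.pCore 2 (G ⧸ K) := ⟨_, rfl⟩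
  have hRn : R.Normal := hR ▸ Cfsg.pCore_normal 2 (G ⧸ K)
  have hRc : Subgroup.centralizer (R : Set (G ⧸ K)) ≤ R := by
    rw [hR]
    apply Cfsg.Agent.Lib.Helper55.centralizer_pCore_le
    intro N hN hc
    subst hK
    exact Cfsg.Agent.Lib.Helper55.eq_bot_of_normal_coprime_quotient 2 G N hN hc
  have hRP : R ≤ (P : Subgroup G).map π := by
    have h1 := Cfsg.Agent.Lib.Helper55.pCore_le_sylow (P.mapSurjective hπs)
    rw [Sylow.coe_mapSurjective] at h1
    rw [hR]; exact h1
  -- the restriction of π to P is injective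
  obtain ⟨φ, hφ⟩ : ∃ φ : ↥(P : Subgroup G) →* G ⧸ K, φ = π.comp (P : Subgroup G).subtype :=
    ⟨_, rfl⟩
  have hφv : ∀ x : ↥(P : Subgroup G), φ x = π (x : G) := by
    intro x; rw [hφ]; rfl
  have hPK : (P : Subgroup G) ⊓ K = ⊥ := by
    apply Subgroup.inf_eq_bot_of_coprime
    obtain ⟨m, hm⟩ := IsPGroup.iff_card.mp P.isPGroup'
    rw [hm]
    exact Nat.Coprime.pow_left m hKc.symm
  have hφi : Function.Injective φ := by
    rw [injective_iff_map_eq_one]
    intro x hx
    rw [hφv] at hx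
    have h1 : (x : G) ∈ (P : Subgroup G) ⊓ K := ⟨x.2, hπk _ hx⟩
    rw [hPK, Subgroup.mem_bot] at h1
    exact Subtype.ext h1
  have hφo : ∀ x : ↥(P : Subgroup G), orderOf (φ x) = orderOf x :=
    fun x => orderOf_injective φ hφi x
  have hRφ : ∀ r ∈ R, ∃ x : ↥(P : Subgroup G), φ x = r := by
    intro r hr
    obtain ⟨x, hx, rfl⟩ := hRP hr
    exact ⟨⟨x, hx⟩, by rw [hφv]⟩
  -- distinguished elements
  obtain ⟨u, hu⟩ : ∃ u : ↥(P : Subgroup G), u = e.symm (xa 0) := ⟨_, rfl⟩
  obtain ⟨u', hu'⟩ : ∃ u' : ↥(P : Subgroup G), u' = e.symm (xa 1) := ⟨_, rfl⟩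
  obtain ⟨w, hw⟩ : ∃ w : ↥(P : Subgroup G), w = e.symm (a 1) := ⟨_, rfl⟩
  have hou : orderOf u = 4 := by
    rw [hu, MulEquiv.orderOf_eq]; exact orderOf_xa 0
  have hou' : orderOf u' = 4 := by
    rw [hu', MulEquiv.orderOf_eq]; exact orderOf_xa 1
  have how : orderOf w = 2 * n := by
    rw [hw, MulEquiv.orderOf_eq]; exact orderOf_a_one
  have huw : u * w = u' := by
    rw [hu, hw, hu', ← map_mul, xa_mul_a, zero_add]
  -- the two-group property of P
  have hP2 : ∀ x : ↥(P : Subgroup G), ∃ j : ℕ, orderOf x = 2 ^ j := by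
    intro x
    obtain ⟨j, hj⟩ := P.isPGroup' x
    obtain ⟨i, -, hi⟩ := (Nat.dvd_prime_pow Nat.prime_two).mp (orderOf_dvd_of_pow_eq_one hj)
    exact ⟨i, hi⟩
  -- (S1) R contains the image of an element of order 4
  have S1 : ∃ x0 : ↥(P : Subgroup G), orderOf x0 = 4 ∧ φ x0 ∈ R := by
    by_contra hcon
    push_neg at hcon
    have c1 : ∀ x : ↥(P : Subgroup G), φ x ∈ R → x ^ 2 = 1 := by
      intro x hx
      obtain ⟨j, hj⟩ := hP2 x
      by_cases hj2 : 2 ≤ j
      · exfalso
        apply hcon (x ^ 2 ^ (j - 2)) _ (by rw [map_pow]; exact R.pow_mem hx _)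
        rw [orderOf_pow' x (pow_ne_zero _ (by norm_num)), hj,
          Nat.gcd_eq_right (pow_dvd_pow 2 (by omega)), Nat.pow_div (by omega) (by norm_num)]
        have : j - (j - 2) = 2 := by omega
        rw [this]
      · have : orderOf x ∣ 2 := by
          rw [hj]
          calc 2 ^ j ∣ 2 ^ 1 := pow_dvd_pow 2 (by omega)
            _ = 2 := pow_one 2
        exact orderOf_dvd_iff_pow_eq_one.mp this
    -- elements of P of exponent 2
    have c2 : ∀ x : ↥(P : Subgroup G), x ^ 2 = 1 → x = 1 ∨ x = e.symm (a (n : ZMod (2 * n))) := by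
      intro x hx
      have h1 : (e x) ^ 2 = 1 := by rw [← map_pow, hx, map_one]
      rcases hex : e x with i | i
      · rw [hex, sq, a_mul_a, one_def] at h1
        have h2 : i + i = 0 := by
          injection h1
        have h3 : ((2 * n : ℕ) : ℤ) ∣ ((i.val + i.val : ℕ) : ℤ) := by
          rw [← ZMod.intCast_zmod_eq_zero_iff_dvd]
          push_cast
          rw [ZMod.natCast_zmod_val, h2]
        have h4 : 2 * n ∣ i.val + i.val := by exact_mod_cast h3
        have h5 : i.val < 2 * n := ZMod.val_lt i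
        obtain ⟨c, hc⟩ := h4
        have h6 : c = 0 ∨ c = 1 := by
          rcases c with _ | _ | c
          · left; rfl
          · right; rfl
          · exfalso; nlinarith
        rcases h6 with rfl | rfl
        · left
          have : i.val = 0 := by omega
          have hi0 : i = 0 := (ZMod.val_eq_zero i).mp this
          apply e.injective
          rw [hex, hi0, map_one, one_def]
        · right
          have : i.val = n := by omega
          have hin : i = ((i.val : ℕ) : ZMod (2 * n)) := (ZMod.natCast_zmod_val i).symm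
          rw [this] at hin
          apply e.injective
          rw [hex, hin, MulEquiv.apply_symm_apply]
      · exfalso
        rw [hex, xa_sq, one_def] at h1
        have h2 : (n : ZMod (2 * n)) = 0 := by injection h1
        rw [ZMod.natCast_eq_zero_iff] at h2
        have := Nat.le_of_dvd (by omega) h2
        omega
    obtain ⟨z, hz⟩ : ∃ z : ↥(P : Subgroup G), z = e.symm (a (n : ZMod (2 * n))) := ⟨_, rfl⟩
    rw [← hz] at c2
    have c3 : ∀ r ∈ R, r = 1 ∨ r = φ z := by
      intro r hr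
      obtain ⟨x, rfl⟩ := hRφ r hr
      rcases c2 x (c1 x hr) with h | h
      · left; rw [h, map_one]
      · right; rw [h]
    have c4 : ∀ y : G ⧸ K, y ∈ Subgroup.centralizer (R : Set (G ⧸ K)) := by
      intro y
      rw [Subgroup.mem_centralizer_iff]
      intro r hr
      have h1 : y * r * y⁻¹ ∈ R := hRn.conj_mem r hr y
      rcases c3 r hr with h | h
      · rw [h]; simp
      · rcases c3 _ h1 with h2 | h2
        · have : r = 1 := by
            have h3 : y⁻¹ * (y * r * y⁻¹) * y = r := by group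
            rw [← h3, h2]; group
          rw [this]; simp
        · rw [← h] at h2
          have h3 : y * r = (y * r * y⁻¹) * y := by group
          rw [h3, h2]
    have c5 : φ u ∈ R := hRc (c4 _)
    have c6 := c1 u c5
    have c7 : orderOf u ∣ 2 := orderOf_dvd_of_pow_eq_one c6
    rw [hou] at c7
    omega
  obtain ⟨x0, hx0, hx0R⟩ := S1
  -- (S2) images of all elements of order 4 of P lie in R
  have S2 : ∀ y : ↥(P : Subgroup G), orderOf y = 4 → φ y ∈ R := by
    intro y hy
    obtain ⟨g, hg⟩ := h4 (x0 : G) (y : G) (by rw [Subgroup.orderOf_coe]; exact hx0)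
      (by rw [Subgroup.orderOf_coe]; exact hy)
    have h1 : (y : G) ∈ Subgroup.zpowers (y : G) := Subgroup.mem_zpowers _
    rw [hg, mem_map_conj, Subgroup.mem_zpowers_iff] at h1
    obtain ⟨j, hj⟩ := h1
    have h2 : π (y : G) = π g * (π (x0 : G)) ^ j * (π g)⁻¹ := by
      rw [← map_zpow, hj]
      simp only [map_mul, map_inv]
      group
    rw [hφv, h2]
    apply hRn.conj_mem
    rw [← hφv]
    exact R.zpow_mem hx0R j
  have hwR : φ w ∈ R := by
    have h1 : w = u⁻¹ * u' := by rw [← huw]; group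
    rw [h1, map_mul, map_inv]
    exact R.mul_mem (R.inv_mem (S2 u hou)) (S2 u' hou')
  -- (S3) the contradiction
  obtain ⟨v, hv⟩ : ∃ v : ↥(P : Subgroup G), v = w ^ (n / 2) := ⟨_, rfl⟩
  have hov : orderOf v = 4 := by
    rw [hv, orderOf_pow' w (by omega), how]
    have h1 : Nat.gcd (2 * n) (n / 2) = n / 2 := by
      apply Nat.gcd_eq_right
      obtain ⟨c, hc⟩ := hn2
      rw [hc]
      have : 2 * c / 2 = c := by omega
      rw [this]
      exact ⟨4, by ring⟩
    rw [h1]
    obtain ⟨c, hc⟩ := hn2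
    rw [hc]
    have : 2 * c / 2 = c := by omega
    rw [this]
    have hc0 : 0 < c := by omega
    rw [show 2 * (2 * c) = 4 * c by ring]
    exact Nat.mul_div_cancel 4 hc0
  obtain ⟨g, hg⟩ := h4 (v : G) (u : G) (by rw [Subgroup.orderOf_coe]; exact hov)
    (by rw [Subgroup.orderOf_coe]; exact hou)
  -- t = g v g⁻¹ lies in ⟨u⟩ ≤ P
  have ht : g * (v : G) * g⁻¹ ∈ Subgroup.zpowers (u : G) := by
    rw [hg, mem_map_conj]
    have : g⁻¹ * (g * (v : G) * g⁻¹) * g = (v : G) := by group
    rw [this]; exact Subgroup.mem_zpowers _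
  have htP : g * (v : G) * g⁻¹ ∈ (P : Subgroup G) := by
    have : Subgroup.zpowers (u : G) ≤ (P : Subgroup G) := by
      rw [Subgroup.zpowers_le]; exact u.2
    exact this ht
  obtain ⟨t, ht'⟩ : ∃ t : ↥(P : Subgroup G), (t : G) = g * (v : G) * g⁻¹ := ⟨⟨_, htP⟩, rfl⟩
  -- u is a power of t
  have hut : ∃ j : ℤ, u = t ^ j := by
    have h1 : (u : G) ∈ Subgroup.zpowers (u : G) := Subgroup.mem_zpowers _
    rw [hg, mem_map_conj, Subgroup.mem_zpowers_iff] at h1
    obtain ⟨j, hj⟩ := h1
    refine ⟨j, ?_⟩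
    apply Subtype.ext
    rw [Subgroup.coe_zpow, ht']
    have h2 : (g * (v : G) * g⁻¹) ^ j = g * (v : G) ^ j * g⁻¹ := by
      rw [← MulAut.conj_apply, ← map_zpow, MulAut.conj_apply]
    rw [h2, hj]; group
  -- conjugate of φ w by π g
  have hc1 : π g * φ w * (π g)⁻¹ ∈ R := hRn.conj_mem _ hwR _
  obtain ⟨w', hw'⟩ := hRφ _ hc1
  have how' : orderOf w' = 2 * n := by
    rw [← hφo w', hw', ← how, ← hφo w]
    have : π g * φ w * (π g)⁻¹ = MulAut.conj (π g) (φ w) := by rw [MulAut.conj_apply]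
    rw [this, MulEquiv.orderOf_eq]
  have hcomm : Commute w' w := by
    have h1 : Commute (e w') (e w) := by
      rcases hex : e w' with i | i
      · rw [hw, MulEquiv.apply_symm_apply]
        show a i * a 1 = a 1 * a i
        rw [a_mul_a, a_mul_a, add_comm]
      · exfalso
        have h2 : orderOf (e w') = 2 * n := by rw [MulEquiv.orderOf_eq]; exact how'
        rw [hex, orderOf_xa] at h2
        omega
    have h2 : e (w' * w) = e (w * w') := by rw [map_mul, map_mul]; exact h1
    exact e.injective h2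
  have hpow : w' ^ (n / 2) = t := by
    apply hφi
    rw [map_pow, hw', hφv t, ht', hφv w]
    have h1 : (π g * π (w : G) * (π g)⁻¹) ^ (n / 2) = π g * (π (w : G)) ^ (n / 2) * (π g)⁻¹ := by
      rw [← MulAut.conj_apply, ← map_pow, MulAut.conj_apply]
    rw [h1, ← map_pow]
    have h2 : ((w : G)) ^ (n / 2) = (v : G) := by
      rw [hv]; rfl
    rw [h2]
    simp only [map_mul, map_inv]
  have htw : Commute t w := by
    rw [← hpow]; exact hcomm.pow_left _
  obtain ⟨j, hj⟩ := hut
  have huwc : Commute u w := by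
    rw [hj]; exact htw.zpow_left j
  have h1 : e (u * w) = e (w * u) := by rw [huwc.eq]
  rw [map_mul, map_mul, hu, hw, MulEquiv.apply_symm_apply, MulEquiv.apply_symm_apply,
    xa_mul_a, a_mul_xa] at h1
  have h2 : (0 : ZMod (2 * n)) + 1 = 0 - 1 := by injection h1
  have h3 : ((2 : ℕ) : ZMod (2 * n)) = 0 := by
    have : (2 : ZMod (2 * n)) = (0 + 1) - (0 - 1) := by ring
    rw [h2] at this
    push_cast
    rw [this]; ring
  rw [ZMod.natCast_eq_zero_iff] at h3
  have := Nat.le_of_dvd (by norm_num) h3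
  omega

end Cfsg.Agent.Lib.Helper53.BQuot
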