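import Mathlib
import Cfsg.Agent.S3908
import Cfsg.Agent.S3909
import Cfsg.Agent.Lib.Helper55.Cores
import Cfsg.Agent.Lib.Helper53.BQuotA
import Cfsg.Agent.Lib.Helper53.BQuotB

set_option autoImplicit false

/-!
Quotients of a solvable group in which abelian subgroups of equal order are conjugate by a
normal elementary abelian subgroup (helper53).
-/

namespace Cfsg.Agent.Lib.Helper53.BQuot

open scoped Pointwise

/-- Sylow plus Schur–Zassenhaus decomposition of a subgroup `A ≥ M` with `A / M` abelian. -/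
theorem exists_decomp {G : Type*} [Group G] [Finite G] (M : Subgroup G) [M.Normal] (p : ℕ)
    [Fact p.Prime] (hMp : IsPGroup p M) (A : Subgroup G) (hMA : M ≤ A)
    (hA : ∀ x ∈ A, ∀ y ∈ A, x * y * x⁻¹ * y⁻¹ ∈ M) :
    ∃ Q D : Subgroup G, M ≤ Q ∧ IsPGroup p Q ∧ Q ⊔ D = A ∧
      Nat.card Q = p ^ (Nat.card A).factorization p ∧ Nat.card Q * Nat.card D = Nat.card A ∧
      (∀ x ∈ D, ∀ y ∈ D, x * y = y * x) ∧ (Nat.card D).Coprime p := by
  obtain ⟨S⟩ : Nonempty (Sylow p A) := inferInstance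
  have hN : M.subgroupOf A ≤ (S : Subgroup A) := by
    have h1 : IsPGroup p (M.subgroupOf A) := hMp.comap_subtype
    exact h1.le_sylow_of_normal S
  have hSn : (S : Subgroup A).Normal := by
    constructor
    intro s hs a
    have h1 : a * s * a⁻¹ * s⁻¹ ∈ M.subgroupOf A := by
      rw [Subgroup.mem_subgroupOf]
      exact hA a a.2 s s.2
    have h2 : a * s * a⁻¹ = (a * s * a⁻¹ * s⁻¹) * s := by group
    rw [h2]
    exact (S : Subgroup A).mul_mem (hN h1) hs
  obtain ⟨H0, hH0⟩ := Subgroup.exists_right_complement'_of_coprime (N := (S : Subgroup A))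
    S.card_coprime_index
  have hinj : Function.Injective A.subtype := A.subtype_injective
  have hMQ : M ≤ (S : Subgroup A).map A.subtype := by
    intro m hm
    exact ⟨⟨m, hMA hm⟩, hN (Subgroup.mem_subgroupOf.mpr hm), rfl⟩
  have hdisj : (S : Subgroup A).map A.subtype ⊓ H0.map A.subtype = ⊥ := by
    rw [← Subgroup.map_inf _ _ _ hinj, hH0.disjoint.eq_bot, Subgroup.map_bot]
  refine ⟨(S : Subgroup A).map A.subtype, H0.map A.subtype, hMQ, S.isPGroup'.map _, ?_, ?_, ?_,
    ?_, ?_⟩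
  · rw [← Subgroup.map_sup, hH0.sup_eq_top, ← MonoidHom.range_eq_map, Subgroup.range_subtype]
  · rw [Subgroup.card_map_of_injective hinj]
    exact S.card_eq_multiplicity
  · rw [Subgroup.card_map_of_injective hinj, Subgroup.card_map_of_injective hinj]
    exact hH0.card_mul_card
  · intro x hx y hy
    have h1 : x * y * x⁻¹ * y⁻¹ ∈ M := by
      have hxA : x ∈ A := (Subgroup.map_subtype_le H0) hx
      have hyA : y ∈ A := (Subgroup.map_subtype_le H0) hy
      exact hA x hxA y hyA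
    have h2 : x * y * x⁻¹ * y⁻¹ ∈ H0.map A.subtype :=
      Subgroup.mul_mem _ (Subgroup.mul_mem _ (Subgroup.mul_mem _ hx hy) (Subgroup.inv_mem _ hx))
        (Subgroup.inv_mem _ hy)
    have h3 : x * y * x⁻¹ * y⁻¹ ∈ (S : Subgroup A).map A.subtype ⊓ H0.map A.subtype :=
      ⟨hMQ h1, h2⟩
    rw [hdisj, Subgroup.mem_bot] at h3
    calc x * y = (x * y * x⁻¹ * y⁻¹) * y * x := by group
      _ = y * x := by rw [h3, one_mul]
  · rw [Subgroup.card_map_of_injective hinj]
    have h1 := hH0.symm.index_eq_card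
    rw [← h1]
    exact ((Nat.Prime.coprime_iff_not_dvd (Fact.out : p.Prime)).mpr S.not_dvd_index).symm

/-- If `M` is central in `A` and `A / M` is abelian, elements of order prime to `p` of `A`
are central in `A`. -/
theorem D_central {G : Type*} [Group G] [Finite G] (M : Subgroup G) (p : ℕ)
    (hMp : ∀ m ∈ M, m ^ p = 1) (A D : Subgroup G) (hDA : D ≤ A) (hD : (Nat.card D).Coprime p)
    (hMcent : ∀ m ∈ M, ∀ a ∈ A, a * m = m * a)
    (hA : ∀ x ∈ A, ∀ y ∈ A, x * y * x⁻¹ * y⁻¹ ∈ M) :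
    ∀ d ∈ D, ∀ a ∈ A, a * d = d * a := by
  intro d hd a ha
  obtain ⟨c, hc⟩ : ∃ c : G, c = a * d * a⁻¹ * d⁻¹ := ⟨_, rfl⟩
  have hcM : c ∈ M := hc ▸ hA a ha d (hDA hd)
  have hcd : Commute d c := hMcent c hcM d (hDA hd)
  have key : ∀ k : ℕ, a * d ^ k * a⁻¹ = c ^ k * d ^ k := by
    intro k
    induction k with
    | zero => simp
    | succ k ih =>
      have h1 : a * d ^ (k + 1) * a⁻¹ = (a * d ^ k * a⁻¹) * (a * d * a⁻¹) := by
        rw [pow_succ]; group
      have h2 : a * d * a⁻¹ = c * d := by rw [hc]; group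
      have h3 : d ^ k * c = c * d ^ k := (hcd.pow_left k).eq
      rw [h1, ih, h2, pow_succ, pow_succ]
      calc c ^ k * d ^ k * (c * d) = c ^ k * (d ^ k * c) * d := by group
        _ = c ^ k * (c * d ^ k) * d := by rw [h3]
        _ = c ^ k * c * (d ^ k * d) := by group
  have h1 := key (Nat.card D)
  have hdk : d ^ Nat.card D = 1 := by
    have h2 : (⟨d, hd⟩ : D) ^ Nat.card D = 1 := pow_card_eq_one'
    have h3 : d ^ Nat.card D = (((⟨d, hd⟩ : D) ^ Nat.card D : D) : G) := by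
      rw [Subgroup.coe_pow]
    rw [h3, h2]; rfl
  rw [hdk, mul_one, mul_one, mul_inv_cancel] at h1
  have hc1 : c = 1 := by
    have h2 : orderOf c ∣ Nat.card D := orderOf_dvd_of_pow_eq_one h1.symm
    have h3 : orderOf c ∣ p := orderOf_dvd_of_pow_eq_one (hMp c hcM)
    have h4 : orderOf c ∣ Nat.gcd (Nat.card D) p := Nat.dvd_gcd h2 h3
    rw [hD] at h4
    exact orderOf_eq_one_iff.mp (Nat.dvd_one.mp h4)
  have h5 : a * d * a⁻¹ * d⁻¹ = 1 := hc ▸ hc1
  calc a * d = (a * d * a⁻¹ * d⁻¹) * d * a := by group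
    _ = d * a := by rw [h5, one_mul]

/-- `Q ⊔ D` is commutative when `Q` is and `D` is central in `Q ⊔ D`. -/
theorem sup_comm {G : Type*} [Group G] (Q D : Subgroup G)
    (hQ : ∀ x ∈ Q, ∀ y ∈ Q, x * y = y * x)
    (hDcent : ∀ d ∈ D, ∀ a ∈ Q ⊔ D, a * d = d * a) :
    IsMulCommutative ↥(Q ⊔ D) := by
  have h1 : Q ⊔ D ≤ Subgroup.centralizer (Q : Set G) := by
    apply sup_le
    · intro x hx
      rw [Subgroup.mem_centralizer_iff]
      intro y hy
      exact hQ y hy x hx
    · intro d hd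
      rw [Subgroup.mem_centralizer_iff]
      intro y hy
      exact hDcent d hd y (Subgroup.mem_sup_left hy)
  have h2 : Q ⊔ D ≤ Subgroup.centralizer ((Q ⊔ D : Subgroup G) : Set G) := by
    apply sup_le
    · intro q hq
      rw [Subgroup.mem_centralizer_iff]
      intro a ha
      have := h1 ha
      rw [Subgroup.mem_centralizer_iff] at this
      exact (this q hq).symm
    · intro d hd
      rw [Subgroup.mem_centralizer_iff]
      intro a ha
      exact hDcent d hd a ha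
  refine ⟨⟨fun a b => ?_⟩⟩
  apply Subtype.ext
  have := h2 b.2
  rw [Subgroup.mem_centralizer_iff] at this
  exact this a a.2

/-- `M` of order `p` is central in `A` if `A / M` is abelian and `A` has an abelian
`p`-subgroup `Q ≥ M` not of exponent `p`. -/
theorem M_central_of_comm {G : Type*} [Group G] [Finite G] (M : Subgroup G) (p : ℕ)
    [Fact p.Prime] (hMp : ∀ m ∈ M, m ^ p = 1) (hMcard : Nat.card M = p)
    (hf2 : ∀ a : G, orderOf a = p → a ∈ M)
    (Q A : Subgroup G) (hMQ : M ≤ Q) (hQA : Q ≤ A) (hQp : IsPGroup p Q)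
    (hQ : ∀ x ∈ Q, ∀ y ∈ Q, x * y = y * x)
    (x : G) (hx : x ∈ Q) (hxp : x ^ p ≠ 1)
    (hA : ∀ x ∈ A, ∀ y ∈ A, x * y * x⁻¹ * y⁻¹ ∈ M) :
    ∀ m ∈ M, ∀ a ∈ A, a * m = m * a := by
  have hp : p.Prime := Fact.out
  intro m hm a ha
  obtain ⟨c, hc⟩ : ∃ c : G, c = a * x * a⁻¹ * x⁻¹ := ⟨_, rfl⟩
  have hcM : c ∈ M := hc ▸ hA a ha x (hQA hx)
  have hcx : Commute c x := hQ c (hMQ hcM) x hx
  have h1 : a * x ^ p * a⁻¹ = x ^ p := by
    have h2 : a * x ^ p * a⁻¹ = (a * x * a⁻¹) ^ p := by rw [conj_pow]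
    have h3 : a * x * a⁻¹ = c * x := by rw [hc]; group
    rw [h2, h3, hcx.mul_pow, hMp c hcM, one_mul]
  obtain ⟨y, hy⟩ : ∃ y : G, y = x ^ p := ⟨_, rfl⟩
  rw [← hy] at h1 hxp
  have hyQ : y ∈ Q := hy ▸ Q.pow_mem hx p
  obtain ⟨j, hj⟩ : ∃ j : ℕ, orderOf y = p ^ j := by
    obtain ⟨j, hj⟩ := hQp ⟨y, hyQ⟩
    have h2 : y ^ p ^ j = 1 := by
      have := congrArg Subtype.val hj
      simpa using this
    obtain ⟨i, -, hi⟩ := (Nat.dvd_prime_pow hp).mp (orderOf_dvd_of_pow_eq_one h2)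
    exact ⟨i, hi⟩
  have hj0 : j ≠ 0 := by
    rintro rfl
    rw [pow_zero, orderOf_eq_one_iff] at hj
    exact hxp hj
  obtain ⟨z, hz⟩ : ∃ z : G, z = y ^ (p ^ (j - 1)) := ⟨_, rfl⟩
  have hoz : orderOf z = p := by
    rw [hz, orderOf_pow' y (pow_ne_zero _ hp.ne_zero), hj,
      Nat.gcd_eq_right (pow_dvd_pow p (Nat.sub_le j 1)), Nat.pow_div (Nat.sub_le j 1) hp.pos]
    have : j - (j - 1) = 1 := by omega
    rw [this, pow_one]
  have hzM : z ∈ M := hf2 z hoz
  have hay : Commute a y := by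
    show a * y = y * a
    calc a * y = (a * y * a⁻¹) * a := by group
      _ = y * a := by rw [h1]
  have haz : Commute a z := by
    rw [hz]; exact hay.pow_right _
  have hMz : M = Subgroup.zpowers z := by
    have hle : Subgroup.zpowers z ≤ M := by rw [Subgroup.zpowers_le]; exact hzM
    have hcard : Nat.card M ≤ Nat.card (Subgroup.zpowers z) := by
      rw [Nat.card_zpowers, hoz, hMcard]
    exact (Subgroup.eq_of_le_of_card_ge hle hcard).symm
  rw [hMz] at hm
  obtain ⟨i, rfl⟩ := Subgroup.mem_zpowers_iff.mp hm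
  exact (haz.zpow_right i).eq

/-- A normal subgroup of order two is central. -/
theorem M_central_two {G : Type*} [Group G] (M : Subgroup G) [hn : M.Normal]
    (hMcard : Nat.card M = 2) : ∀ m ∈ M, ∀ a : G, a * m = m * a := by
  intro m hm a
  by_cases h1 : m = 1
  · rw [h1]; simp
  · have h2 : a * m * a⁻¹ ∈ M := hn.conj_mem m hm a
    have h3 : a * m * a⁻¹ ≠ 1 := by
      intro h; apply h1
      have : m = a⁻¹ * (a * m * a⁻¹) * a := by group
      rw [this, h]; group
    have h4 : a * m * a⁻¹ = m := by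
      obtain ⟨y, -, hy'⟩ := (Nat.card_eq_two_iff' (1 : M)).mp hMcard
      have e1 := hy' ⟨m, hm⟩ (by intro h; exact h1 (congrArg Subtype.val h))
      have e2 := hy' ⟨a * m * a⁻¹, h2⟩ (by intro h; exact h3 (congrArg Subtype.val h))
      exact congrArg Subtype.val (e2.trans e1.symm)
    calc a * m = (a * m * a⁻¹) * a := by group
      _ = m * a := by rw [h4]

/-- Two Sylow subgroups are conjugate (elementwise form). -/
theorem sylow_conj {G : Type*} [Group G] [Finite G] {p : ℕ} [Fact p.Prime] (P P' : Sylow p G) :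
    ∃ g : G, ∀ b ∈ P', g⁻¹ * b * g ∈ P := by
  obtain ⟨g, hg⟩ := MulAction.exists_smul_eq G P P'
  refine ⟨g, fun b hb => ?_⟩
  rw [← hg] at hb
  have h1 : b ∈ MulAut.conj g • (P : Subgroup G) := hb
  rw [Subgroup.mem_pointwise_smul_iff_inv_smul_mem] at h1
  have h2 : (MulAut.conj g)⁻¹ • b = g⁻¹ * b * g := by
    rw [MulAut.smul_def, MulAut.conj_inv_apply]
  rw [h2] at h1
  exact h1

/-- A subgroup of order 1, 2 or 4 is commutative. -/
theorem comm_of_card_dvd_four {G : Type*} [Group G] [Finite G] (Q : Subgroup G)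
    (h : Nat.card Q ∣ 4) : ∀ x ∈ Q, ∀ y ∈ Q, x * y = y * x := by
  have h4 : Nat.card Q ∈ Nat.divisors 4 := Nat.mem_divisors.mpr ⟨h, by norm_num⟩
  have h5 : Nat.divisors 4 = {1, 2, 4} := by decide
  rw [h5] at h4
  simp only [Finset.mem_insert, Finset.mem_singleton] at h4
  intro x hx y hy
  have key : ∀ a b : Q, a * b = b * a := by
    rcases h4 with h1 | h2 | h3
    · intro a b
      have : Subsingleton Q := (Nat.card_eq_one_iff_unique.mp h1).1
      exact Subsingleton.elim _ _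
    · haveI : Fact (Nat.Prime 2) := ⟨Nat.prime_two⟩
      have hcyc : IsCyclic Q := isCyclic_of_prime_card h2
      intro a b
      exact (IsCyclic.isMulCommutative (α := Q)).is_comm.comm a b
    · haveI : Fact (Nat.Prime 2) := ⟨Nat.prime_two⟩
      have h6 : Nat.card Q = 2 ^ 2 := by rw [h3]; norm_num
      intro a b
      exact (IsPGroup.isMulCommutative_of_card_eq_prime_sq h6).is_comm.comm a b
  exact congrArg Subtype.val (key ⟨x, hx⟩ ⟨y, hy⟩)

end Cfsg.Agent.Lib.Helper53.BQuot
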