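import Mathlib
import Cfsg.Agent.S3908
import Cfsg.Agent.S3909
import Cfsg.Agent.Lib.Helper1.MinNormal
import Cfsg.Agent.Lib.Helper53.BQuotA
import Cfsg.Agent.Lib.Helper53.BQuotB
import Cfsg.Agent.Lib.Helper53.BQuotC

set_option autoImplicit false

/-!
Solvable groups in which abelian subgroups of equal order are conjugate are closed under
quotients (helper53).
-/

namespace Cfsg.Agent.Lib.Helper53.BQuot

open scoped Pointwise

universe u

theorem core {G : Type*} [Group G] [Finite G] [Group.IsSolvable G] (hB : BProp G)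
    (M : Subgroup G) [hMn : M.Normal] (p : ℕ) [Fact p.Prime] (hMc : IsMulCommutative ↥M)
    (hMp : ∀ m ∈ M, m ^ p = 1) (hM : M ≠ ⊥)
    (QA QB D : Subgroup G) (hMQA : M ≤ QA) (hMQB : M ≤ QB) (hQA : IsPGroup p QA)
    (hQB : IsPGroup p QB) (hcard : Nat.card QA = Nat.card QB) (hD : (Nat.card D).Coprime p)
    (hcardAB : Nat.card ↥(QA ⊔ D) = Nat.card ↥(QB ⊔ D))
    (hA : ∀ x ∈ QA ⊔ D, ∀ y ∈ QA ⊔ D, x * y * x⁻¹ * y⁻¹ ∈ M)
    (hB' : ∀ x ∈ QB ⊔ D, ∀ y ∈ QB ⊔ D, x * y * x⁻¹ * y⁻¹ ∈ M) :
    ∃ g : G, QB ⊔ D = (QA ⊔ D).map (MulAut.conj g).toMonoidHom := by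
  have hp : p.Prime := Fact.out
  by_cases hcase : Nat.card QA = Nat.card M
  · have e1 : M = QA := Subgroup.eq_of_le_of_card_ge hMQA (le_of_eq hcase)
    have e2 : M = QB := Subgroup.eq_of_le_of_card_ge hMQB (le_of_eq (hcard ▸ hcase))
    refine ⟨1, ?_⟩
    rw [← e1, ← e2]
    ext x
    rw [mem_map_conj]
    simp
  · have hMpg : IsPGroup p M := by
      intro m
      refine ⟨1, ?_⟩
      apply Subtype.ext
      simpa using hMp m m.2
    obtain ⟨part1, part2⟩ := Cfsg.Agent.S3909.result hB M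
    obtain ⟨m0, hm0M, hm01⟩ : ∃ m ∈ M, m ≠ 1 := by
      by_contra hcon
      apply hM
      rw [Subgroup.eq_bot_iff_forall]
      intro x hx
      by_contra hx1
      exact hcon ⟨x, hx, hx1⟩
    have hom0 : orderOf m0 = p := orderOf_eq_prime (hMp m0 hm0M) hm01
    have hf2 : ∀ a : G, orderOf a = p → a ∈ M :=
      fun a ha => part1 a ⟨m0, hm0M, hom0.trans ha.symm⟩
    obtain ⟨P, hPA⟩ := hQA.exists_le_sylow
    have hMcard : Nat.card M = p := by
      obtain ⟨t, ht⟩ := IsPGroup.iff_card.mp hMpg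
      rcases Nat.lt_or_ge t 2 with h | h
      · interval_cases t
        · exfalso; apply hM
          rw [pow_zero] at ht
          exact Subgroup.card_eq_one.mp ht
        · rw [ht, pow_one]
      · exfalso
        have h1 := part2 p t h ht ⟨hMc, hMp⟩ P
        apply hcase
        have h2 : QA ≤ M := h1 ▸ hPA
        rw [le_antisymm h2 hMQA]
    have hex : ∀ Q : Subgroup G, M ≤ Q → Nat.card Q ≠ Nat.card M → ∃ x ∈ Q, x ^ p ≠ 1 := by
      intro Q hMQ hne
      by_contra hcon
      apply hne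
      have h1 : Q ≤ M := by
        intro x hx
        by_cases hx1 : x = 1
        · rw [hx1]; exact M.one_mem
        · apply hf2 x
          apply orderOf_eq_prime _ hx1
          by_contra hxp
          exact hcon ⟨x, hx, hxp⟩
      rw [le_antisymm h1 hMQ]
    obtain ⟨x, hxQ, hxp⟩ := hex QA hMQA hcase
    obtain ⟨y, hyQ, hyp⟩ := hex QB hMQB (by rw [← hcard]; exact hcase)
    obtain ⟨g0, hg0⟩ : ∃ g : G, ∀ b ∈ QB, g⁻¹ * b * g ∈ P := by
      obtain ⟨P', hPB⟩ := hQB.exists_le_sylow
      obtain ⟨g, hg⟩ := sylow_conj P P'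
      exact ⟨g, fun b hb => hg b (hPB hb)⟩
    -- commutativity of P gives commutativity of QA and QB
    have hPcomm : (∀ a b : ↥(P : Subgroup G), a * b = b * a) →
        (∀ a ∈ QA, ∀ b ∈ QA, a * b = b * a) ∧ (∀ a ∈ QB, ∀ b ∈ QB, a * b = b * a) := by
      intro hc
      constructor
      · intro a ha b hb
        exact congrArg Subtype.val (hc ⟨a, hPA ha⟩ ⟨b, hPA hb⟩)
      · intro a ha b hb
        have h1 := congrArg Subtype.val (hc ⟨_, hg0 a ha⟩ ⟨_, hg0 b hb⟩)
        have h2 : g0⁻¹ * a * g0 * (g0⁻¹ * b * g0) = g0⁻¹ * b * g0 * (g0⁻¹ * a * g0) := h1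
        calc a * b = g0 * (g0⁻¹ * a * g0 * (g0⁻¹ * b * g0)) * g0⁻¹ := by group
          _ = g0 * (g0⁻¹ * b * g0 * (g0⁻¹ * a * g0)) * g0⁻¹ := by rw [h2]
          _ = b * a := by group
    have hdich : ((∀ a ∈ QA, ∀ b ∈ QA, a * b = b * a) ∧ (∀ a ∈ QB, ∀ b ∈ QB, a * b = b * a)) ∨
        (p = 2 ∧ Nat.card QA = p ^ (Nat.card G).factorization p) := by
      rcases eq_or_ne p 2 with hp2 | hp2
      · subst hp2
        obtain ⟨s2, -⟩ := Cfsg.Agent.S3908.result hB
        rcases s2 P with hcyc | hel | ⟨k, ⟨e⟩⟩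
        · left
          apply hPcomm
          intro a b
          exact (IsCyclic.isMulCommutative (α := ↥(P : Subgroup G))).is_comm.comm a b
        · exfalso
          exact hxp (hel.2 x (hPA hxQ))
        · have h4 : ∀ x y : G, orderOf x = 4 → orderOf y = 4 →
              ∃ g : G, Subgroup.zpowers y = (Subgroup.zpowers x).map (MulAut.conj g).toMonoidHom := by
            intro x y hx hy
            exact hB _ _ inferInstance inferInstance
              (by rw [Nat.card_zpowers, Nat.card_zpowers, hx, hy])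
          have hk := quat_bound h4 P k e
          have hPcard : Nat.card ↥(P : Subgroup G) = 4 * 2 ^ k := by
            rw [Nat.card_congr e.toEquiv, Nat.card_eq_fintype_card, QuaternionGroup.card]
          interval_cases k
          · left
            apply hPcomm
            have h6 : Nat.card ↥(P : Subgroup G) = 2 ^ 2 := by rw [hPcard]; norm_num
            intro a b
            exact (IsPGroup.isMulCommutative_of_card_eq_prime_sq h6).is_comm.comm a b
          · have hP8 : Nat.card ↥(P : Subgroup G) = 8 := by rw [hPcard]; norm_num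
            by_cases h8 : Nat.card QA = 8
            · right
              refine ⟨rfl, ?_⟩
              rw [h8, ← hP8]
              exact P.card_eq_multiplicity
            · left
              have hdvd : Nat.card QA ∣ 8 := hP8 ▸ Subgroup.card_dvd_of_le hPA
              have hdvd4 : Nat.card QA ∣ 4 := by
                have h9 : Nat.card QA ∈ Nat.divisors 8 := Nat.mem_divisors.mpr ⟨hdvd, by norm_num⟩
                have h10 : Nat.divisors 8 = {1, 2, 4, 8} := by decide
                rw [h10] at h9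
                simp only [Finset.mem_insert, Finset.mem_singleton] at h9
                rcases h9 with h | h | h | h
                · rw [h]; norm_num
                · rw [h]; norm_num
                · rw [h]
                · exact absurd h h8
              exact ⟨comm_of_card_dvd_four QA hdvd4, comm_of_card_dvd_four QB (hcard ▸ hdvd4)⟩
      · left
        obtain ⟨-, sodd⟩ := Cfsg.Agent.S3908.result hB
        rcases sodd p hp2 P with hcyc | hexp
        · apply hPcomm
          intro a b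
          exact (IsCyclic.isMulCommutative (α := ↥(P : Subgroup G))).is_comm.comm a b
        · exfalso
          exact hxp (hexp x (hPA hxQ))
    rcases hdich with ⟨hQAc, hQBc⟩ | ⟨hp2, hSyl⟩
    · have hMcA : ∀ m ∈ M, ∀ a ∈ QA ⊔ D, a * m = m * a :=
        M_central_of_comm M p hMp hMcard hf2 QA (QA ⊔ D) hMQA le_sup_left hQA hQAc x hxQ hxp hA
      have hMcB : ∀ m ∈ M, ∀ a ∈ QB ⊔ D, a * m = m * a :=
        M_central_of_comm M p hMp hMcard hf2 QB (QB ⊔ D) hMQB le_sup_left hQB hQBc y hyQ hyp hB'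
      have hDA := D_central M p hMp (QA ⊔ D) D le_sup_right hD hMcA hA
      have hDB := D_central M p hMp (QB ⊔ D) D le_sup_right hD hMcB hB'
      exact hB _ _ (sup_comm QA D hQAc hDA) (sup_comm QB D hQBc hDB) hcardAB
    · subst hp2
      have hMcG := M_central_two M hMcard
      have hDA := D_central M 2 hMp (QA ⊔ D) D le_sup_right hD (fun m hm a _ => hMcG m hm a) hA
      have hDB := D_central M 2 hMp (QB ⊔ D) D le_sup_right hD (fun m hm a _ => hMcG m hm a) hB'
      obtain ⟨SA, hSA⟩ : ∃ S : Sylow 2 G, (S : Subgroup G) = QA := ⟨Sylow.ofCard QA hSyl, rfl⟩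
      obtain ⟨SB, hSB⟩ : ∃ S : Sylow 2 G, (S : Subgroup G) = QB :=
        ⟨Sylow.ofCard QB (hcard ▸ hSyl), rfl⟩
      have hQAC : (SA : Subgroup G) ≤ Subgroup.centralizer (D : Set G) := by
        rw [hSA]
        intro q hq
        rw [Subgroup.mem_centralizer_iff]
        intro d hd
        exact (hDA d hd q (Subgroup.mem_sup_left hq)).symm
      have hQBC : (SB : Subgroup G) ≤ Subgroup.centralizer (D : Set G) := by
        rw [hSB]
        intro q hq
        rw [Subgroup.mem_centralizer_iff]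
        intro d hd
        exact (hDB d hd q (Subgroup.mem_sup_left hq)).symm
      obtain ⟨c, hc⟩ := sylow_conj (SA.subtype hQAC) (SB.subtype hQBC)
      refine ⟨(c : G), ?_⟩
      have hcC : ∀ d ∈ D, d * (c : G) = (c : G) * d := by
        intro d hd
        have := c.2
        rw [Subgroup.mem_centralizer_iff] at this
        exact this d hd
      have hle : QB ≤ QA.map (MulAut.conj (c : G)).toMonoidHom := by
        intro b hb
        rw [mem_map_conj]
        have hbC : b ∈ Subgroup.centralizer (D : Set G) := hQBC (hSB ▸ hb)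
        have h0 : (⟨b, hbC⟩ : Subgroup.centralizer (D : Set G)) ∈ SB.subtype hQBC := by
          show (⟨b, hbC⟩ : Subgroup.centralizer (D : Set G)) ∈
            (SB : Subgroup G).subgroupOf (Subgroup.centralizer (D : Set G))
          rw [Subgroup.mem_subgroupOf]
          exact hSB ▸ hb
        have h1 := hc ⟨b, hbC⟩ h0
        have h2 : c⁻¹ * ⟨b, hbC⟩ * c ∈
            (SA : Subgroup G).subgroupOf (Subgroup.centralizer (D : Set G)) := h1
        rw [Subgroup.mem_subgroupOf, hSA] at h2
        exact h2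
      have hQ : QB = QA.map (MulAut.conj (c : G)).toMonoidHom := by
        apply Subgroup.eq_of_le_of_card_ge hle
        rw [Subgroup.card_map_of_injective (MulAut.conj (c : G)).injective, hcard]
      have hDmap : D.map (MulAut.conj (c : G)).toMonoidHom = D := by
        ext d
        rw [mem_map_conj]
        constructor
        · intro h
          have h1 := hcC _ h
          have h2 : d = (c : G) * ((c : G)⁻¹ * d * (c : G)) * (c : G)⁻¹ := by group
          rw [h2, ← h1]
          have h3 : (c : G)⁻¹ * d * (c : G) * (c : G) * (c : G)⁻¹ = (c : G)⁻¹ * d * (c : G) := by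
            group
          rw [h3]; exact h
        · intro h
          have h1 := hcC d h
          have h2 : (c : G)⁻¹ * d * (c : G) = d := by
            rw [mul_assoc, h1]; group
          rw [h2]; exact h
      rw [Subgroup.map_sup, ← hQ, hDmap]

theorem key {G : Type*} [Group G] [Finite G] [Group.IsSolvable G] (hB : BProp G)
    (M : Subgroup G) [hMn : M.Normal] (p : ℕ) [Fact p.Prime] (hMc : IsMulCommutative ↥M)
    (hMp : ∀ m ∈ M, m ^ p = 1) (hM : M ≠ ⊥)
    (A B : Subgroup G) (hMA : M ≤ A) (hMB : M ≤ B) (hAB : Nat.card A = Nat.card B)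
    (hA : ∀ x ∈ A, ∀ y ∈ A, x * y * x⁻¹ * y⁻¹ ∈ M)
    (hB' : ∀ x ∈ B, ∀ y ∈ B, x * y * x⁻¹ * y⁻¹ ∈ M) :
    ∃ g : G, B = A.map (MulAut.conj g).toMonoidHom := by
  have hMpg : IsPGroup p M := by
    intro m
    refine ⟨1, ?_⟩
    apply Subtype.ext
    simpa using hMp m m.2
  obtain ⟨QA, DA, hMQA, hQAp, hsupA, hcQA, hmulA, hDAc, hDAp⟩ := exists_decomp M p hMpg A hMA hA
  obtain ⟨QB, DB, hMQB, hQBp, hsupB, hcQB, hmulB, hDBc, hDBp⟩ := exists_decomp M p hMpg B hMB hB'
  have hQcard : Nat.card QA = Nat.card QB := by rw [hcQA, hcQB, hAB]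
  have hDcard : Nat.card DA = Nat.card DB := by
    have h1 : Nat.card QA * Nat.card DA = Nat.card QA * Nat.card DB := by
      rw [hmulA, hQcard, hmulB, hAB]
    exact Nat.eq_of_mul_eq_mul_left Nat.card_pos h1
  obtain ⟨g, hg⟩ := hB DA DB ⟨⟨fun a b => Subtype.ext (hDAc a a.2 b b.2)⟩⟩
    ⟨⟨fun a b => Subtype.ext (hDBc a a.2 b b.2)⟩⟩ hDcard
  obtain ⟨QA', hQA'⟩ : ∃ Q : Subgroup G, Q = QA.map (MulAut.conj g).toMonoidHom := ⟨_, rfl⟩
  have hA' : A.map (MulAut.conj g).toMonoidHom = QA' ⊔ DB := by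
    rw [← hsupA, Subgroup.map_sup, ← hg, hQA']
  have hinj : Function.Injective (MulAut.conj g).toMonoidHom := (MulAut.conj g).injective
  have hMQA' : M ≤ QA' := by
    intro m hm
    rw [hQA', mem_map_conj]
    apply hMQA
    have := hMn.conj_mem m hm g⁻¹
    rwa [inv_inv] at this
  have hQA'p : IsPGroup p QA' := hQA' ▸ hQAp.map _
  have hc1 : Nat.card QA' = Nat.card QB := by
    rw [hQA', Subgroup.card_map_of_injective hinj, hQcard]
  have hc2 : Nat.card ↥(QA' ⊔ DB) = Nat.card ↥(QB ⊔ DB) := by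
    rw [← hA', Subgroup.card_map_of_injective hinj, hsupB, hAB]
  have hA'' : ∀ x ∈ QA' ⊔ DB, ∀ y ∈ QA' ⊔ DB, x * y * x⁻¹ * y⁻¹ ∈ M := by
    intro x hx y hy
    rw [← hA', mem_map_conj] at hx hy
    have h1 := hA _ hx _ hy
    have h2 : g⁻¹ * x * g * (g⁻¹ * y * g) * (g⁻¹ * x * g)⁻¹ * (g⁻¹ * y * g)⁻¹ =
        g⁻¹ * (x * y * x⁻¹ * y⁻¹) * g := by group
    rw [h2] at h1
    have h3 := hMn.conj_mem _ h1 g
    have h4 : g * (g⁻¹ * (x * y * x⁻¹ * y⁻¹) * g) * g⁻¹ = x * y * x⁻¹ * y⁻¹ := by group
    rwa [h4] at h3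
  have hB'' : ∀ x ∈ QB ⊔ DB, ∀ y ∈ QB ⊔ DB, x * y * x⁻¹ * y⁻¹ ∈ M := by
    rw [hsupB]; exact hB'
  obtain ⟨c, hc⟩ := core hB M p hMc hMp hM QA' QB DB hMQA' hMQB hQA'p hQBp hc1 hDBp hc2
    hA'' hB''
  refine ⟨c * g, ?_⟩
  rw [← hsupB, hc, ← hA', Subgroup.map_map]
  congr 1
  ext x
  simp [MulAut.conj_apply, mul_assoc]

/-- The quotient of a solvable `BProp`-group by a normal elementary abelian `p`-subgroup
is again a `BProp`-group. -/
theorem quot_elem {G : Type*} [Group G] [Finite G] [Group.IsSolvable G] (hB : BProp G)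
    (M : Subgroup G) [hMn : M.Normal] (p : ℕ) [Fact p.Prime] (hMc : IsMulCommutative ↥M)
    (hMp : ∀ m ∈ M, m ^ p = 1) (hM : M ≠ ⊥) : BProp (G ⧸ M) := by
  intro A B hA hB' hAB
  have hsurj : Function.Surjective (QuotientGroup.mk' M) := QuotientGroup.mk'_surjective M
  have hk : ∀ X : Subgroup (G ⧸ M), M ≤ X.comap (QuotientGroup.mk' M) := by
    intro X m hm
    rw [Subgroup.mem_comap]
    have : QuotientGroup.mk' M m = 1 := (QuotientGroup.eq_one_iff m).mpr hm
    rw [this]; exact X.one_mem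
  have hcomm : ∀ X : Subgroup (G ⧸ M), IsMulCommutative ↥X →
      ∀ x ∈ X.comap (QuotientGroup.mk' M), ∀ y ∈ X.comap (QuotientGroup.mk' M),
        x * y * x⁻¹ * y⁻¹ ∈ M := by
    intro X hX x hx y hy
    rw [Subgroup.mem_comap] at hx hy
    have h1 : QuotientGroup.mk' M x * QuotientGroup.mk' M y =
        QuotientGroup.mk' M y * QuotientGroup.mk' M x :=
      congrArg Subtype.val (hX.is_comm.comm ⟨_, hx⟩ ⟨_, hy⟩)
    have h2 : QuotientGroup.mk' M (x * y * x⁻¹ * y⁻¹) = 1 := by
      rw [map_mul, map_mul, map_mul, map_inv, map_inv, h1]; group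
    exact (QuotientGroup.eq_one_iff _).mp h2
  have hidx : A.index = B.index := by
    have h1 := Subgroup.card_mul_index A
    have h2 := Subgroup.card_mul_index B
    rw [hAB, ← h2] at h1
    exact Nat.eq_of_mul_eq_mul_left Nat.card_pos h1
  have hcard : Nat.card ↥(A.comap (QuotientGroup.mk' M)) =
      Nat.card ↥(B.comap (QuotientGroup.mk' M)) := by
    have h1 := Subgroup.card_mul_index (A.comap (QuotientGroup.mk' M))
    have h2 := Subgroup.card_mul_index (B.comap (QuotientGroup.mk' M))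
    rw [Subgroup.index_comap_of_surjective A hsurj] at h1
    rw [Subgroup.index_comap_of_surjective B hsurj, ← hidx, ← h1] at h2
    have hpos : 0 < A.index := Nat.pos_of_ne_zero Subgroup.index_ne_zero_of_finite
    exact (Nat.eq_of_mul_eq_mul_right hpos h2).symm
  obtain ⟨g, hg⟩ := key hB M p hMc hMp hM (A.comap (QuotientGroup.mk' M))
    (B.comap (QuotientGroup.mk' M)) (hk A) (hk B) hcard (hcomm A hA) (hcomm B hB')
  exact ⟨QuotientGroup.mk' M g, conj_of_comap M A B g hg⟩

/-- Quotients of finite solvable `BProp`-groups are `BProp`-groups. -/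
theorem quot_all : ∀ (n : ℕ) (G : Type u) [Group G] [Finite G], Nat.card G ≤ n →
    Group.IsSolvable G → BProp G → ∀ (M : Subgroup G) [M.Normal], BProp (G ⧸ M) := by
  intro n
  induction n with
  | zero =>
    intro G _ _ hcard
    have : 0 < Nat.card G := Nat.card_pos
    omega
  | succ n ih =>
    intro G _ _ hcard hsol hB M hMn
    by_cases hM : M = ⊥
    · subst hM
      exact BProp.of_equiv (QuotientGroup.quotientBot (G := G)).symm hB
    · -- a minimal normal subgroup inside M
      have hne : ∃ k : ℕ, ∃ N : Subgroup G, (N.Normal ∧ N ≠ ⊥ ∧ N ≤ M) ∧ Nat.card N = k :=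
        ⟨_, M, ⟨hMn, hM, le_rfl⟩, rfl⟩
      classical
      obtain ⟨N, ⟨hNn, hNne, hNM⟩, hk⟩ := Nat.find_spec hne
      have hmin : ∀ K : Subgroup G, K.Normal → K ≤ N → K = ⊥ ∨ K = N := by
        intro K hKn hKN
        by_cases hK : K = ⊥
        · left; exact hK
        · right
          apply Subgroup.eq_of_le_of_card_ge hKN
          rw [hk]
          exact Nat.find_min' hne ⟨K, ⟨hKn, hK, hKN.trans hNM⟩, rfl⟩
      obtain ⟨hNc, p, hp, hNp⟩ :=
        Cfsg.Agent.Lib.Helper1.minNormal_elementary N inferInstance hNne hmin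
      haveI : Fact p.Prime := ⟨hp⟩
      have h1 : BProp (G ⧸ N) := quot_elem hB N p hNc hNp hNne
      have hlt : Nat.card (G ⧸ N) ≤ n := by
        have h2 := Subgroup.card_eq_card_quotient_mul_card_subgroup N
        have h3 : 1 < Nat.card N := (Subgroup.one_lt_card_iff_ne_bot N).mpr hNne
        have h4 : 0 < Nat.card (G ⧸ N) := Nat.card_pos
        nlinarith
      haveI : (M.map (QuotientGroup.mk' N)).Normal :=
        Subgroup.Normal.map hMn _ (QuotientGroup.mk'_surjective N)
      have h5 := ih (G ⧸ N) hlt inferInstance h1 (M.map (QuotientGroup.mk' N))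
      exact BProp.of_equiv (QuotientGroup.quotientQuotientEquivQuotient N M hNM) h5

end Cfsg.Agent.Lib.Helper53.BQuot
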