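-- Extremely closed abelian 2-subgroups (helper53): local structure of `⟨H, H^g⟩`, the
-- transversal of odd elements and its factorization with respect to an involution of `H`.
import Mathlib
import Cfsg.Prelude.Def_SubgroupEmbedding
import Cfsg.Agent.Lib.Helper50.Burnside
import Cfsg.Agent.Lib.Helper50.ZStar
import Cfsg.Agent.Lib.Helper22.SylTools
import Cfsg.Agent.Lib.Helper53.PGroups
import Cfsg.Agent.Lib.Helper53.Basic

set_option autoImplicit false

namespace Cfsg.Agent.Lib.Helper53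

open Cfsg.Agent.Lib

section ExtClosedGeneral

variable {G : Type*} [Group G]

/-- Hypotheses: `H` is an abelian 2-subgroup which is extremely closed. -/
structure ECHyp (H : Subgroup G) : Prop where
  p2 : IsPGroup 2 H
  comm : ∀ x ∈ H, ∀ y ∈ H, x * y = y * x
  cl : Cfsg.IsExtremelyClosed H

/-- `⟨H, g H g⁻¹⟩`. -/
def ecK (H : Subgroup G) (g : G) : Subgroup G := H ⊔ H.map (MulAut.conj g).toMonoidHom

/-- The odd core of `⟨H, g H g⁻¹⟩`. -/
def ecO (H : Subgroup G) (g : G) : Subgroup G := Helper23.coreOf 2 (ecK H g)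

/-- The transversal: odd order elements `k` lying in `⟨H, k H k⁻¹⟩`. -/
def ecT (H : Subgroup G) : Set G := {k | Odd (orderOf k) ∧ k ∈ ecK H k}

/-- Odd order elements inverted by `a`. -/
def ecI (a : G) : Set G := {w | Odd (orderOf w) ∧ a * w * a⁻¹ = w⁻¹}

/-- Elements of the transversal commuting with `a`. -/
def ecX (H : Subgroup G) (a : G) : Set G := {x | x ∈ ecT H ∧ a * x = x * a}

theorem ec_mem_map_conj_iff {H : Subgroup G} (g x : G) :
    x ∈ H.map (MulAut.conj g).toMonoidHom ↔ g⁻¹ * x * g ∈ H := by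
  constructor
  · rintro ⟨h, hh, rfl⟩
    have h1 : g⁻¹ * (g * h * g⁻¹) * g = h := by group
    show g⁻¹ * (g * h * g⁻¹) * g ∈ H
    rw [h1]; exact hh
  · intro hx
    refine ⟨g⁻¹ * x * g, hx, ?_⟩
    show g * (g⁻¹ * x * g) * g⁻¹ = x
    group

theorem ec_conj_mem_map {H : Subgroup G} (g : G) {h : G} (hh : h ∈ H) :
    g * h * g⁻¹ ∈ H.map (MulAut.conj g).toMonoidHom := ⟨h, hh, rfl⟩

theorem ec_mem_sup_decomp {O A : Subgroup G} (hA : A ≤ Subgroup.normalizer (O : Set G)) {x : G}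
    (hx : x ∈ O ⊔ A) : ∃ o ∈ O, ∃ h ∈ A, x = o * h := by
  have h1 : x ∈ ((O ⊔ A : Subgroup G) : Set G) := hx
  rw [Subgroup.coe_mul_of_right_le_normalizer_left O A hA] at h1
  obtain ⟨o, ho, h, hh, rfl⟩ := Set.mem_mul.mp h1
  exact ⟨o, ho, h, hh, rfl⟩

theorem ec_map_conj_mul (H : Subgroup G) (k m : G) :
    H.map (MulAut.conj (k * m)).toMonoidHom =
      (H.map (MulAut.conj m).toMonoidHom).map (MulAut.conj k).toMonoidHom :=
  (Helper31.lb_map_map m k H).symm

theorem ec_map_conj_mul_of_mem_normalizer {H : Subgroup G} (k : G) {m : G}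
    (hm : m ∈ Subgroup.normalizer (H : Set G)) :
    H.map (MulAut.conj (k * m)).toMonoidHom = H.map (MulAut.conj k).toMonoidHom := by
  rw [ec_map_conj_mul, Helper31.map_conj_eq_of_mem_normalizer hm]

theorem ec_odd_of_coprime [Finite G] {O : Subgroup G} (hO : (Nat.card O).Coprime 2) {x : G}
    (hx : x ∈ O) : Odd (orderOf x) := by
  rw [← Nat.coprime_two_right]
  exact Nat.Coprime.coprime_dvd_left (Subgroup.orderOf_dvd_natCard O hx) hO

theorem ec_mem_normalizer_of_conj_le [Finite G] {H : Subgroup G} {x : G}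
    (h : ∀ y ∈ H, x * y * x⁻¹ ∈ H) : x ∈ Subgroup.normalizer (H : Set G) := by
  apply Helper31.mem_normalizer_of_map_conj_eq
  have hle : H.map (MulAut.conj x).toMonoidHom ≤ H := by
    rintro _ ⟨y, hy, rfl⟩
    exact h y hy
  have hcard : Nat.card (H.map (MulAut.conj x).toMonoidHom) = Nat.card H :=
    Subgroup.card_map_of_injective (MulAut.conj x).injective
  exact Subgroup.eq_of_le_of_card_ge hle (le_of_eq hcard.symm)

/-- In a product `O A` with `O` of odd order normalized by the 2-group `A`, an element of odd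
order has trivial `A`-part. -/
theorem ec_eq_one_of_odd_decomp [Finite G] {O A : Subgroup G} (hA2 : IsPGroup 2 A)
    (hO : (Nat.card O).Coprime 2) (hA : A ≤ Subgroup.normalizer (O : Set G))
    {x o h : G} (ho : o ∈ O) (hh : h ∈ A) (hx : x = o * h) (hodd : Odd (orderOf x)) : h = 1 := by
  have key : ∀ n : ℕ, ∃ o' ∈ O, x ^ n = o' * h ^ n := by
    intro n
    induction n with
    | zero => exact ⟨1, O.one_mem, by simp⟩
    | succ n ih =>
      obtain ⟨o', ho', he⟩ := ih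
      refine ⟨o' * (h ^ n * o * (h ^ n)⁻¹), O.mul_mem ho' ?_, ?_⟩
      · exact (Subgroup.mem_normalizer_iff.mp (hA (A.pow_mem hh n)) o).mp ho
      · rw [pow_succ, he, hx, pow_succ]; group
  obtain ⟨o', ho', he⟩ := key (orderOf x)
  rw [pow_orderOf_eq_one] at he
  have h0 : h ^ orderOf x = o'⁻¹ := eq_inv_of_mul_eq_one_right he.symm
  have h1 : h ^ orderOf x ∈ O := by rw [h0]; exact O.inv_mem ho'
  have h2 : h ^ orderOf x = 1 :=
    Helper50.eq_one_of_mem_coprime_of_mem_pGroup O A hO hA2 h1 (A.pow_mem hh _)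
  have h3 : orderOf h ∣ orderOf x := orderOf_dvd_of_pow_eq_one h2
  obtain ⟨k, hk⟩ := hA2 ⟨h, hh⟩
  have hk' : h ^ 2 ^ k = 1 := by
    have := congrArg Subtype.val hk
    simpa using this
  have h4 : orderOf h ∣ 2 ^ k := orderOf_dvd_of_pow_eq_one hk'
  have h5 : (orderOf x).Coprime (2 ^ k) :=
    Nat.Coprime.pow_right k (Nat.coprime_two_right.mpr hodd)
  have h6 : orderOf h = 1 := Nat.eq_one_of_dvd_coprimes h5 h3 h4
  exact orderOf_eq_one_iff.mp h6

/-- Odd order elements with equal squares are equal. -/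
theorem ec_eq_of_sq_eq {x y : G} (hx : Odd (orderOf x)) (hy : Odd (orderOf y))
    (h : x * x = y * y) : x = y := by
  have h2 : x ^ 2 = y ^ 2 := by rw [pow_two, pow_two, h]
  have hox : orderOf (x ^ 2) = orderOf x :=
    Nat.Coprime.orderOf_pow (Nat.coprime_two_right.mpr hx)
  have hoy : orderOf (y ^ 2) = orderOf y :=
    Nat.Coprime.orderOf_pow (Nat.coprime_two_right.mpr hy)
  have hxy : orderOf x = orderOf y := by rw [← hox, ← hoy, h2]
  obtain ⟨m, hm⟩ := hx
  have e1 : x = (x ^ 2) ^ (m + 1) := by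
    rw [← pow_mul]
    have : 2 * (m + 1) = orderOf x + 1 := by omega
    rw [this, pow_succ, pow_orderOf_eq_one, one_mul]
  have e2 : y = (y ^ 2) ^ (m + 1) := by
    rw [← pow_mul]
    have : 2 * (m + 1) = orderOf y + 1 := by omega
    rw [this, pow_succ, pow_orderOf_eq_one, one_mul]
  rw [e1, e2, h2]

end ExtClosedGeneral

section ExtClosedLocal

variable {G : Type*} [Group G] [Finite G] {H : Subgroup G}

theorem le_ecK (H : Subgroup G) (g : G) : H ≤ ecK H g := le_sup_left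

theorem map_le_ecK (H : Subgroup G) (g : G) :
    H.map (MulAut.conj g).toMonoidHom ≤ ecK H g := le_sup_right

theorem ecO_le (H : Subgroup G) (g : G) : ecO H g ≤ ecK H g := Helper23.coreOf_le 2 _

theorem ecO_coprime (H : Subgroup G) (g : G) : (Nat.card (ecO H g)).Coprime 2 :=
  Helper22.coreOf_coprime' 2 _

theorem ecK_le_normalizer_ecO (H : Subgroup G) (g : G) :
    ecK H g ≤ Subgroup.normalizer (ecO H g : Set G) :=
  Subgroup.le_normalizer.trans (Helper22.coreOf_normalizer_le 2 _)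

theorem le_normalizer_ecO (H : Subgroup G) (g : G) :
    H ≤ Subgroup.normalizer (ecO H g : Set G) :=
  (le_ecK H g).trans (ecK_le_normalizer_ecO H g)

theorem ecK_le_of_mem {g x : G} (hx : x ∈ ecK H g) : ecK H x ≤ ecK H g := by
  apply sup_le (le_ecK H g)
  rintro _ ⟨h, hh, rfl⟩
  exact (ecK H g).mul_mem ((ecK H g).mul_mem hx (le_ecK H g hh)) ((ecK H g).inv_mem hx)

theorem ECHyp.isComplement' (hE : ECHyp H) (g : G) :
    (Cfsg.pPrimeCore 2 ↥(ecK H g)).IsComplement' (H.subgroupOf (ecK H g)) := by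
  have : Fact (Nat.Prime 2) := ⟨Nat.prime_two⟩
  have hHT : H ≤ ecK H g := le_ecK H g
  have hinf : ecK H g ⊓ Subgroup.normalizer (H : Set G) = H := hE.cl g
  have hnorm := Helper50.normalizer_subgroupOf_eq_of_inf H (ecK H g) hHT hinf
  have hp' : IsPGroup 2 (H.subgroupOf (ecK H g)) := hE.p2.comap_subtype
  have hab : ∀ a ∈ H.subgroupOf (ecK H g), ∀ b ∈ H.subgroupOf (ecK H g), a * b = b * a := by
    intro a ha b hb
    rw [Subgroup.mem_subgroupOf] at ha hb
    exact Subtype.ext (hE.comm a ha b hb)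
  exact Helper50.pPrimeCore_isComplement'_of_selfNormalizing (H.subgroupOf (ecK H g)) hp' hab hnorm

theorem ECHyp.sup_ecO (hE : ECHyp H) (g : G) : ecO H g ⊔ H = ecK H g := by
  have hc := hE.isComplement' g
  have hHT : H ≤ ecK H g := le_ecK H g
  have hmapH : (H.subgroupOf (ecK H g)).map (ecK H g).subtype = H := by
    rw [Subgroup.subgroupOf_map_subtype, inf_of_le_left hHT]
  have h1 := hc.sup_eq_top
  have h2 := congrArg (Subgroup.map (ecK H g).subtype) h1
  rw [Subgroup.map_sup, hmapH, ← MonoidHom.range_eq_map, Subgroup.range_subtype] at h2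
  exact h2

theorem ECHyp.inf_ecO (hE : ECHyp H) (g : G) {x : G} (hx : x ∈ H) (hxO : x ∈ ecO H g) :
    x = 1 :=
  Helper50.eq_one_of_mem_coprime_of_mem_pGroup (ecO H g) H (ecO_coprime H g) hE.p2 hxO hx

theorem ECHyp.ecK_decomp (hE : ECHyp H) (g : G) {x : G} (hx : x ∈ ecK H g) :
    ∃ o ∈ ecO H g, ∃ h ∈ H, x = o * h := by
  rw [← hE.sup_ecO g] at hx
  exact ec_mem_sup_decomp (le_normalizer_ecO H g) hx

theorem ECHyp.mem_ecO_of_odd (hE : ECHyp H) {g x : G} (hx : x ∈ ecK H g)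
    (hodd : Odd (orderOf x)) : x ∈ ecO H g := by
  obtain ⟨o, ho, h, hh, hxe⟩ := hE.ecK_decomp g hx
  have h1 : h = 1 :=
    ec_eq_one_of_odd_decomp hE.p2 (ecO_coprime H g) (le_normalizer_ecO H g) ho hh hxe hodd
  rw [hxe, h1, mul_one]; exact ho

theorem ECHyp.not_dvd_relIndex (hE : ECHyp H) (g : G) : ¬ 2 ∣ H.relIndex (ecK H g) := by
  have hc := hE.isComplement' g
  have h1 : (H.subgroupOf (ecK H g)).index = Nat.card (Cfsg.pPrimeCore 2 ↥(ecK H g)) :=
    hc.index_eq_card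
  have h2 : (Nat.card (Cfsg.pPrimeCore 2 ↥(ecK H g))).Coprime 2 :=
    Helper22.card_pPrimeCore_coprime 2 _
  intro hdvd
  have h3 : H.relIndex (ecK H g) = (H.subgroupOf (ecK H g)).index := rfl
  rw [h3, h1] at hdvd
  have := Nat.eq_one_of_dvd_coprimes h2 hdvd (dvd_refl 2)
  omega

/-- Every `g` is `k m` with `k` in the odd core of `⟨H, H^g⟩` and `m` normalizing `H`. -/
theorem ECHyp.exists_decomp (hE : ECHyp H) (g : G) :
    ∃ k ∈ ecO H g, ∃ m ∈ Subgroup.normalizer (H : Set G), g = k * m := by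
  have : Fact (Nat.Prime 2) := ⟨Nat.prime_two⟩
  have hsyl : Helper22.IsSyl 2 H (ecK H g) := ⟨le_ecK H g, hE.p2, hE.not_dvd_relIndex g⟩
  obtain ⟨n, hn, hnA⟩ := hsyl.exists_conj_le (map_le_ecK H g) (hE.p2.map _)
  have hng : n * g ∈ Subgroup.normalizer (H : Set G) := by
    apply ec_mem_normalizer_of_conj_le
    intro y hy
    have h1 := hnA (g * y * g⁻¹) (ec_conj_mem_map g hy)
    have h2 : n * g * y * (n * g)⁻¹ = n * (g * y * g⁻¹) * n⁻¹ := by group
    rw [h2]; exact h1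
  obtain ⟨o, ho, h, hh, hne⟩ := hE.ecK_decomp g ((ecK H g).inv_mem hn)
  refine ⟨o, ho, h * (n * g), ?_, ?_⟩
  · exact Subgroup.mul_mem _ (Subgroup.le_normalizer hh) hng
  · have : g = n⁻¹ * (n * g) := by group
    rw [← mul_assoc, ← hne]; exact this

theorem ECHyp.exists_conj_eq (hE : ECHyp H) (g : G) :
    ∃ k ∈ ecO H g, H.map (MulAut.conj g).toMonoidHom = H.map (MulAut.conj k).toMonoidHom := by
  obtain ⟨k, hk, m, hm, hg⟩ := hE.exists_decomp g
  refine ⟨k, hk, ?_⟩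
  rw [hg, ec_map_conj_mul_of_mem_normalizer k hm]

theorem ECHyp.ecO_unique (hE : ECHyp H) {g k k' : G} (hk : k ∈ ecO H g) (hk' : k' ∈ ecO H g)
    (h : H.map (MulAut.conj k).toMonoidHom = H.map (MulAut.conj k').toMonoidHom) : k = k' := by
  have h1 : k⁻¹ * k' ∈ Subgroup.normalizer (H : Set G) := by
    apply Helper31.mem_normalizer_of_map_conj_eq
    rw [ec_map_conj_mul, ← h, ← ec_map_conj_mul, inv_mul_cancel, Helper31.lb_map_one]
  have h2 : k⁻¹ * k' ∈ ecO H g := (ecO H g).mul_mem ((ecO H g).inv_mem hk) hk'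
  have h3 : k⁻¹ * k' ∈ H := by
    rw [← hE.cl g]
    exact ⟨ecO_le H g h2, h1⟩
  have h4 := hE.inf_ecO g h3 h2
  exact (inv_mul_eq_one.mp h4)

theorem ECHyp.mem_ecT_of_odd (hE : ECHyp H) {g x : G} (hx : x ∈ ecK H g)
    (hodd : Odd (orderOf x)) : x ∈ ecT H := by
  refine ⟨hodd, ?_⟩
  have hxO : x ∈ ecO H g := hE.mem_ecO_of_odd hx hodd
  obtain ⟨k₀, hk₀, hconj⟩ := hE.exists_conj_eq x
  have hk₀K : k₀ ∈ ecK H g := ecK_le_of_mem hx (ecO_le H x hk₀)
  have hk₀O : k₀ ∈ ecO H g :=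
    hE.mem_ecO_of_odd hk₀K (ec_odd_of_coprime (ecO_coprime H x) hk₀)
  have heq : x = k₀ := hE.ecO_unique hxO hk₀O hconj
  subst heq
  exact ecO_le H x hk₀

theorem ECHyp.ecT_mem_ecO (hE : ECHyp H) {k : G} (hk : k ∈ ecT H) : k ∈ ecO H k :=
  hE.mem_ecO_of_odd hk.2 hk.1

theorem ECHyp.ecO_subset_ecT (hE : ECHyp H) {g k : G} (hk : k ∈ ecO H g) : k ∈ ecT H :=
  hE.mem_ecT_of_odd (ecO_le H g hk) (ec_odd_of_coprime (ecO_coprime H g) hk)

theorem ECHyp.ecT_unique (hE : ECHyp H) {k k' : G} (hk : k ∈ ecT H) (hk' : k' ∈ ecT H)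
    (h : H.map (MulAut.conj k).toMonoidHom = H.map (MulAut.conj k').toMonoidHom) : k = k' := by
  have h1 : ecK H k = ecK H k' := by unfold ecK; rw [h]
  have h2 : k' ∈ ecO H k := by
    have := hE.ecT_mem_ecO hk'
    unfold ecO at this ⊢
    rw [h1]; exact this
  exact hE.ecO_unique (hE.ecT_mem_ecO hk) h2 h

theorem ECHyp.exists_ecT (hE : ECHyp H) (g : G) :
    ∃ k ∈ ecT H, ∃ m ∈ Subgroup.normalizer (H : Set G), g = k * m := by
  obtain ⟨k, hk, m, hm, hg⟩ := hE.exists_decomp g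
  exact ⟨k, hE.ecO_subset_ecT hk, m, hm, hg⟩

omit [Finite G] in
theorem one_mem_ecT (H : Subgroup G) : (1 : G) ∈ ecT H := by
  refine ⟨by simp, Subgroup.one_mem _⟩

theorem ECHyp.ecT_inter_normalizer (hE : ECHyp H) {k : G} (hk : k ∈ ecT H)
    (hkN : k ∈ Subgroup.normalizer (H : Set G)) : k = 1 := by
  apply hE.ecT_unique hk (one_mem_ecT H)
  rw [Helper31.map_conj_eq_of_mem_normalizer hkN, Helper31.lb_map_one]

theorem ECHyp.ecT_conj (hE : ECHyp H) {n k : G} (hn : n ∈ Subgroup.normalizer (H : Set G))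
    (hk : k ∈ ecT H) : n * k * n⁻¹ ∈ ecT H := by
  refine ⟨?_, ?_⟩
  · show Odd (orderOf (n * k * n⁻¹))
    rw [orderOf_conj_eq]; exact hk.1
  · -- n k n⁻¹ ∈ H ⊔ conj (n k n⁻¹) H
    have h1 : H.map (MulAut.conj (n * k * n⁻¹)).toMonoidHom =
        H.map (MulAut.conj (n * k)).toMonoidHom :=
      ec_map_conj_mul_of_mem_normalizer (n * k) (Subgroup.inv_mem _ hn)
    have h2 : k ∈ H ⊔ H.map (MulAut.conj k).toMonoidHom := hk.2
    have h3 : n * k * n⁻¹ ∈ (H ⊔ H.map (MulAut.conj k).toMonoidHom).map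
        (MulAut.conj n).toMonoidHom := ec_conj_mem_map n h2
    rw [Subgroup.map_sup, Helper31.map_conj_eq_of_mem_normalizer hn, ← ec_map_conj_mul] at h3
    unfold ecK
    rw [h1]; exact h3

theorem ECHyp.ecT_inv (hE : ECHyp H) {k : G} (hk : k ∈ ecT H) : k⁻¹ ∈ ecT H :=
  hE.mem_ecT_of_odd ((ecK H k).inv_mem hk.2) (by rw [orderOf_inv]; exact hk.1)

/-- A Sylow 2-subgroup containing `H` normalizes `H`. -/
theorem ECHyp.sylow_le_normalizer (hE : ECHyp H) (P : Sylow 2 G) (hHP : H ≤ (P : Subgroup G)) :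
    (P : Subgroup G) ≤ Subgroup.normalizer (H : Set G) := by
  have : Fact (Nat.Prime 2) := ⟨Nat.prime_two⟩
  intro x hx
  have hK : ecK H x ≤ (P : Subgroup G) := by
    apply sup_le hHP
    rintro _ ⟨h, hh, rfl⟩
    exact Subgroup.mul_mem _ (Subgroup.mul_mem _ hx (hHP hh)) (Subgroup.inv_mem _ hx)
  have hK2 : IsPGroup 2 (ecK H x) := P.isPGroup'.to_le hK
  have h1 := Helper50.le_of_isPGroup_of_inf_normalizer H (ecK H x) hK2 (le_ecK H x) (hE.cl x)
  apply ec_mem_normalizer_of_conj_le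
  intro y hy
  exact h1 (map_le_ecK H x (ec_conj_mem_map x hy))

end ExtClosedLocal

end Cfsg.Agent.Lib.Helper53
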