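-- Extremely closed abelian 2-subgroups (helper53): factorization of the transversal with respect
-- to an involution, the closure argument (non-cyclic case) and the cyclic case (from `Z*`).
import Mathlib
import Cfsg.Agent.Lib.Helper53.ExtClosed1
import Cfsg.Agent.Lib.Helper48.Generation

set_option autoImplicit false

namespace Cfsg.Agent.Lib.Helper53

open Cfsg.Agent.Lib

section ExtClosedInv

variable {G : Type*} [Group G] [Finite G] {H : Subgroup G}

omit [Finite G] in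
theorem ecI_conj {a v : G} (haa : a * a = 1) (hv : v ∈ ecI a) : v * a * v⁻¹ = v * v * a := by
  have hainv : a⁻¹ = a := inv_eq_of_mul_eq_one_right haa
  have h := hv.2
  calc v * a * v⁻¹ = v * a * (a * v * a⁻¹) := by rw [h]
    _ = v * (a * a) * v * a⁻¹ := by group
    _ = v * v * a := by rw [haa, hainv]; group

omit [Finite G] in
theorem ecI_eq_of_conj_eq {a w w' : G} (haa : a * a = 1) (hw : w ∈ ecI a) (hw' : w' ∈ ecI a)
    (h : w * a * w⁻¹ = w' * a * w'⁻¹) : w = w' := by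
  rw [ecI_conj haa hw, ecI_conj haa hw'] at h
  exact ec_eq_of_sq_eq hw.1 hw'.1 (mul_right_cancel h)

/-- Every element of the transversal is `w x` with `w` inverted and `x` centralized by `a`. -/
theorem ECHyp.ecT_factor (hE : ECHyp H) {a : G} (haH : a ∈ H) (haa : a * a = 1) {k : G}
    (hk : k ∈ ecT H) : ∃ w ∈ ecI a, ∃ x ∈ ecX H a, k = w * x := by
  have hkO : k ∈ ecO H k := hE.ecT_mem_ecO hk
  have hainv : a⁻¹ = a := inv_eq_of_mul_eq_one_right haa
  have hanorm : ∀ y ∈ ecO H k, a * y * a⁻¹ ∈ ecO H k := fun y hy =>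
    (Subgroup.mem_normalizer_iff.mp (le_normalizer_ecO H k haH) y).mp hy
  obtain ⟨j, hj⟩ : ∃ j : G, j = k * (a * k⁻¹ * a⁻¹) := ⟨_, rfl⟩
  have hjO : j ∈ ecO H k := by
    rw [hj]; exact (ecO H k).mul_mem hkO (hanorm _ ((ecO H k).inv_mem hkO))
  have hjinv : a * j * a⁻¹ = j⁻¹ := by
    rw [hj, hainv]
    have e1 : a * (k * (a * k⁻¹ * a)) * a = a * k * a * k⁻¹ * (a * a) := by group
    rw [e1, haa, mul_one]
    have e2 : (k * (a * k⁻¹ * a))⁻¹ = a⁻¹ * k * a⁻¹ * k⁻¹ := by group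
    rw [e2, hainv]
  have hjodd : Odd (orderOf j) := ec_odd_of_coprime (ecO_coprime H k) hjO
  obtain ⟨m, hm⟩ := hjodd
  obtain ⟨w, hw⟩ : ∃ w : G, w = j ^ (m + 1) := ⟨_, rfl⟩
  have hwO : w ∈ ecO H k := by rw [hw]; exact (ecO H k).pow_mem hjO _
  have hww : w * w = j := by
    rw [hw, ← pow_add]
    have : m + 1 + (m + 1) = orderOf j + 1 := by omega
    rw [this, pow_succ, pow_orderOf_eq_one, one_mul]
  have hwinv : a * w * a⁻¹ = w⁻¹ := by
    rw [hw, ← conj_pow, hjinv, inv_pow]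
  refine ⟨w, ⟨ec_odd_of_coprime (ecO_coprime H k) hwO, hwinv⟩, w⁻¹ * k, ⟨?_, ?_⟩, by group⟩
  · exact hE.ecO_subset_ecT ((ecO H k).mul_mem ((ecO H k).inv_mem hwO) hkO)
  · have h1 : a * w⁻¹ * a⁻¹ = w := by
      have e : a * w⁻¹ * a⁻¹ = (a * w * a⁻¹)⁻¹ := by group
      rw [e, hwinv, inv_inv]
    have h2 : a * k * a⁻¹ = j⁻¹ * k := by rw [hj]; group
    have h3 : a * (w⁻¹ * k) * a⁻¹ = w⁻¹ * k := by
      have e : a * (w⁻¹ * k) * a⁻¹ = (a * w⁻¹ * a⁻¹) * (a * k * a⁻¹) := by group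
      rw [e, h1, h2, ← hww]; group
    calc a * (w⁻¹ * k) = a * (w⁻¹ * k) * a⁻¹ * a := by group
      _ = w⁻¹ * k * a := by rw [h3]

theorem ECHyp.conj_inv_eq (hE : ECHyp H) {a : G} (haH : a ∈ H) (haa : a * a = 1) {w k : G}
    (hw : w ∈ ecI a) (hk : k ∈ ecT H)
    (hmem : w * a * w⁻¹ ∈ H.map (MulAut.conj k).toMonoidHom) : w * a * w⁻¹ = k * a * k⁻¹ := by
  have hainv : a⁻¹ = a := inv_eq_of_mul_eq_one_right haa
  obtain ⟨s, hs, hse⟩ := hmem
  have hse' : k * s * k⁻¹ = w * a * w⁻¹ := hse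
  have h1 : w * a * w⁻¹ = w * w * a := ecI_conj haa hw
  have he : a * (k * s * k⁻¹) = (w * w)⁻¹ := by
    rw [hse', h1]
    have e : a * (w * w * a) = (a * w * a⁻¹) * (a * w * a⁻¹) * (a * a) := by group
    rw [e, hw.2, haa]; group
  have hkO : k ∈ ecO H k := hE.ecT_mem_ecO hk
  have heK : a * (k * s * k⁻¹) ∈ ecK H k :=
    (ecK H k).mul_mem (le_ecK H k haH) (map_le_ecK H k (ec_conj_mem_map k hs))
  have heodd : Odd (orderOf (a * (k * s * k⁻¹))) := by
    rw [he, orderOf_inv]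
    have hd : orderOf (w * w) ∣ orderOf w := by
      rw [← pow_two]; exact orderOf_pow_dvd 2
    exact hw.1.of_dvd_nat hd
  have heO : a * (k * s * k⁻¹) ∈ ecO H k := hE.mem_ecO_of_odd heK heodd
  have has : a * s ∈ ecO H k := by
    have e : a * s = a * (k * s * k⁻¹) * (k * (s⁻¹ * k⁻¹ * (s⁻¹)⁻¹)) := by group
    rw [e]
    refine (ecO H k).mul_mem heO ((ecO H k).mul_mem hkO ?_)
    exact (Subgroup.mem_normalizer_iff.mp (le_normalizer_ecO H k (H.inv_mem hs)) _).mp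
      ((ecO H k).inv_mem hkO)
  have has1 : a * s = 1 := hE.inf_ecO k (H.mul_mem haH hs) has
  have hsa : s = a := by
    have e : s = a⁻¹ := eq_inv_of_mul_eq_one_right has1
    rw [e, hainv]
  rw [← hse', hsa]

/-- Products `w x` (`w` inverted by `a`, `x` in the transversal centralizing `a`) lie in the
transversal. -/
theorem ECHyp.ecI_mul_ecX (hE : ECHyp H) {a : G} (haH : a ∈ H) (haa : a * a = 1) {w x : G}
    (hw : w ∈ ecI a) (hx : x ∈ ecX H a) : w * x ∈ ecT H := by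
  obtain ⟨k, hk, m, hm, hg⟩ := hE.exists_ecT (w * x)
  obtain ⟨w', hw', x', hx', hkw⟩ := hE.ecT_factor haH haa hk
  have hconj : H.map (MulAut.conj (w * x)).toMonoidHom = H.map (MulAut.conj k).toMonoidHom := by
    rw [hg, ec_map_conj_mul_of_mem_normalizer k hm]
  have h1 : w * a * w⁻¹ ∈ H.map (MulAut.conj k).toMonoidHom := by
    rw [← hconj]
    have e : w * a * w⁻¹ = (w * x) * a * (w * x)⁻¹ := by
      have hx2 : x * a * x⁻¹ = a := by rw [← hx.2]; group
      calc w * a * w⁻¹ = w * (x * a * x⁻¹) * w⁻¹ := by rw [hx2]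
        _ = (w * x) * a * (w * x)⁻¹ := by group
    rw [e]; exact ec_conj_mem_map _ haH
  have h2 := hE.conj_inv_eq haH haa hw hk h1
  have h3 : k * a * k⁻¹ = w' * a * w'⁻¹ := by
    have hx2 : x' * a * x'⁻¹ = a := by rw [← hx'.2]; group
    rw [hkw]
    calc (w' * x') * a * (w' * x')⁻¹ = w' * (x' * a * x'⁻¹) * w'⁻¹ := by group
      _ = w' * a * w'⁻¹ := by rw [hx2]
  have hww : w = w' := ecI_eq_of_conj_eq haa hw hw' (h2.trans h3)
  have h4 : H.map (MulAut.conj x).toMonoidHom = H.map (MulAut.conj x').toMonoidHom := by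
    have h5 : H.map (MulAut.conj (w * x)).toMonoidHom =
        H.map (MulAut.conj (w * x')).toMonoidHom := by
      rw [hconj, hkw, hww]
    rw [ec_map_conj_mul, ec_map_conj_mul] at h5
    exact Subgroup.map_injective (MulAut.conj w).injective h5
  have hxx : x = x' := hE.ecT_unique hx.1 hx'.1 h4
  rw [hww, hxx, ← hkw]; exact hk

/-- Local data at an involution `a` of `H`: an odd order normal subgroup `θ` of `C_G(a)` with
`C_G(a) = N_{C(a)}(H) θ`. -/
structure ECLocal (H : Subgroup G) (a : G) (θ : Subgroup G) : Prop where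
  le : θ ≤ Subgroup.centralizer ({a} : Set G)
  norm : Subgroup.centralizer ({a} : Set G) ≤ Subgroup.normalizer (θ : Set G)
  odd : (Nat.card θ).Coprime 2
  decomp : ∀ x ∈ Subgroup.centralizer ({a} : Set G),
    ∃ n ∈ Subgroup.normalizer (H : Set G), ∃ o ∈ θ, x = n * o

/-- `O(C_G(H))`. -/
def ecU (H : Subgroup G) : Subgroup G := Helper23.coreOf 2 (Subgroup.centralizer (H : Set G))

theorem ecU_le (H : Subgroup G) : ecU H ≤ Subgroup.centralizer (H : Set G) :=
  Helper23.coreOf_le 2 _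

theorem ecU_coprime (H : Subgroup G) : (Nat.card (ecU H)).Coprime 2 :=
  Helper22.coreOf_coprime' 2 _

theorem ECHyp.le_centralizer (hE : ECHyp H) {a : G} (haH : a ∈ H) :
    H ≤ Subgroup.centralizer ({a} : Set G) := by
  intro h hh
  rw [Subgroup.mem_centralizer_singleton_iff]
  exact hE.comm h hh a haH

variable {a : G} {θ : Subgroup G}

theorem ECLocal.le_normalizer (hE : ECHyp H) (haH : a ∈ H) (hL : ECLocal H a θ) :
    H ≤ Subgroup.normalizer (θ : Set G) := (hE.le_centralizer haH).trans hL.norm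

theorem ECLocal.mem_of_odd (hE : ECHyp H) (haH : a ∈ H) (hL : ECLocal H a θ) {x : G}
    (hx : x ∈ θ ⊔ H) (hodd : Odd (orderOf x)) : x ∈ θ := by
  obtain ⟨o, ho, h, hh, hxe⟩ := ec_mem_sup_decomp (hL.le_normalizer hE haH) hx
  have h1 : h = 1 :=
    ec_eq_one_of_odd_decomp hE.p2 hL.odd (hL.le_normalizer hE haH) ho hh hxe hodd
  rw [hxe, h1, mul_one]; exact ho

theorem ECLocal.conj_mem_sup (hE : ECHyp H) (haH : a ∈ H) (hL : ECLocal H a θ) {k : G}
    (hk : k ∈ Subgroup.centralizer ({a} : Set G)) {h : G} (hh : h ∈ H) :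
    k * h * k⁻¹ ∈ θ ⊔ H := by
  obtain ⟨n, hn, o, ho, hke⟩ := hL.decomp k hk
  have hnC : n ∈ Subgroup.centralizer ({a} : Set G) := by
    have : n = k * o⁻¹ := by rw [hke]; group
    rw [this]
    exact Subgroup.mul_mem _ hk (Subgroup.inv_mem _ (hL.le ho))
  have h1 : o * (h * o⁻¹ * h⁻¹) ∈ θ :=
    θ.mul_mem ho ((Subgroup.mem_normalizer_iff.mp (hL.le_normalizer hE haH hh) _).mp (θ.inv_mem ho))
  have h2 : n * (o * (h * o⁻¹ * h⁻¹)) * n⁻¹ ∈ θ :=
    (Subgroup.mem_normalizer_iff.mp (hL.norm hnC) _).mp h1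
  have h3 : n * h * n⁻¹ ∈ H := (Subgroup.mem_normalizer_iff.mp hn h).mp hh
  have e : k * h * k⁻¹ = (n * (o * (h * o⁻¹ * h⁻¹)) * n⁻¹) * (n * h * n⁻¹) := by
    rw [hke]; group
  rw [e]
  exact Subgroup.mul_mem_sup h2 h3

theorem ECLocal.ecK_le (hE : ECHyp H) (haH : a ∈ H) (hL : ECLocal H a θ) {k : G}
    (hk : k ∈ Subgroup.centralizer ({a} : Set G)) : ecK H k ≤ θ ⊔ H := by
  apply sup_le le_sup_right
  rintro _ ⟨h, hh, rfl⟩
  exact hL.conj_mem_sup hE haH hk hh

theorem ECLocal.ecX_subset (hE : ECHyp H) (haH : a ∈ H) (hL : ECLocal H a θ) {x : G}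
    (hx : x ∈ ecX H a) : x ∈ θ := by
  have hxC : x ∈ Subgroup.centralizer ({a} : Set G) := by
    rw [Subgroup.mem_centralizer_singleton_iff]; exact hx.2.symm
  exact hL.mem_of_odd hE haH (hL.ecK_le hE haH hxC hx.1.2) hx.1.1

theorem ECLocal.theta_decomp (hE : ECHyp H) (haH : a ∈ H) (hL : ECLocal H a θ) {o : G}
    (ho : o ∈ θ) : ∃ x ∈ ecX H a, ∃ u ∈ θ ⊓ Subgroup.normalizer (H : Set G), o = x * u := by
  obtain ⟨k, hk, m, hm, hg⟩ := hE.exists_ecT o
  have hconj : H.map (MulAut.conj o).toMonoidHom = H.map (MulAut.conj k).toMonoidHom := by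
    rw [hg, ec_map_conj_mul_of_mem_normalizer k hm]
  have hKK : ecK H k = ecK H o := by unfold ecK; rw [hconj]
  have hkθ : k ∈ θ := by
    apply hL.mem_of_odd hE haH _ hk.1
    have := hk.2
    rw [hKK] at this
    exact hL.ecK_le hE haH (hL.le ho) this
  refine ⟨k, ⟨hk, ?_⟩, m, ⟨?_, hm⟩, hg⟩
  · have := hL.le hkθ
    rw [Subgroup.mem_centralizer_singleton_iff] at this
    exact this.symm
  · have : m = k⁻¹ * o := by rw [hg]; group
    rw [this]
    exact θ.mul_mem (θ.inv_mem hkθ) ho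

theorem ECLocal.inf_normalizer_le (hE : ECHyp H) (haH : a ∈ H) (hL : ECLocal H a θ) :
    θ ⊓ Subgroup.normalizer (H : Set G) ≤ ecU H := by
  apply Helper22.le_coreOf 2
  · intro o ho
    rw [Subgroup.mem_centralizer_iff]
    intro h hh
    have h1 : o * h * o⁻¹ * h⁻¹ ∈ H :=
      H.mul_mem ((Subgroup.mem_normalizer_iff.mp ho.2 h).mp hh) (H.inv_mem hh)
    have h2 : o * h * o⁻¹ * h⁻¹ ∈ θ := by
      have e : o * h * o⁻¹ * h⁻¹ = o * (h * o⁻¹ * h⁻¹) := by group
      rw [e]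
      exact θ.mul_mem ho.1
        ((Subgroup.mem_normalizer_iff.mp (hL.le_normalizer hE haH hh) _).mp (θ.inv_mem ho.1))
    have h3 : o * h * o⁻¹ * h⁻¹ = 1 :=
      Helper50.eq_one_of_mem_coprime_of_mem_pGroup θ H hL.odd hE.p2 h2 h1
    have e : h * o = (o * h * o⁻¹ * h⁻¹)⁻¹ * (o * h) := by group
    rw [e, h3]; simp
  · apply le_normalizer_of_conj_mem
    intro c hc w hw
    have hcC : c ∈ Subgroup.centralizer ({a} : Set G) := by
      rw [Subgroup.mem_centralizer_singleton_iff]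
      exact ((Subgroup.mem_centralizer_iff.mp hc) a haH).symm
    refine ⟨(Subgroup.mem_normalizer_iff.mp (hL.norm hcC) w).mp hw.1, ?_⟩
    have hcN : c ∈ Subgroup.normalizer (H : Set G) := Subgroup.centralizer_le_normalizer _ hc
    exact Subgroup.mul_mem _ (Subgroup.mul_mem _ hcN hw.2) (Subgroup.inv_mem _ hcN)
  · exact Nat.Coprime.coprime_dvd_left (Subgroup.card_dvd_of_le inf_le_left) hL.odd

/-- The closure step: right multiplication by an element of the transversal centralizing `a`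
preserves the set `ecT H * ecU H`. -/
theorem ECLocal.step (hE : ECHyp H) (haH : a ∈ H) (haa : a * a = 1) (hL : ECLocal H a θ)
    {k u x : G} (hk : k ∈ ecT H) (hu : u ∈ ecU H) (hx : x ∈ ecX H a) :
    ∃ k' ∈ ecT H, ∃ u' ∈ ecU H, k * u * x = k' * u' := by
  have huC : u ∈ Subgroup.centralizer (H : Set G) := ecU_le H hu
  have huN : u ∈ Subgroup.normalizer (H : Set G) := Subgroup.centralizer_le_normalizer _ huC
  have hua : u * a = a * u := ((Subgroup.mem_centralizer_iff.mp huC) a haH).symm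
  have hx₁ : u * x * u⁻¹ ∈ ecX H a := by
    refine ⟨hE.ecT_conj huN hx.1, ?_⟩
    have e1 : a * (u * x * u⁻¹) = u * (a * x) * u⁻¹ := by
      calc a * (u * x * u⁻¹) = (a * u) * x * u⁻¹ := by group
        _ = u * (a * x) * u⁻¹ := by rw [← hua]; group
    have e2 : u * x * u⁻¹ * a = u * (x * a) * u⁻¹ := by
      have hua' : u⁻¹ * a = a * u⁻¹ := by
        calc u⁻¹ * a = u⁻¹ * (a * u) * u⁻¹ := by group
          _ = u⁻¹ * (u * a) * u⁻¹ := by rw [hua]
          _ = a * u⁻¹ := by group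
      calc u * x * u⁻¹ * a = u * x * (u⁻¹ * a) := by group
        _ = u * (x * a) * u⁻¹ := by rw [hua']; group
    rw [e1, e2, hx.2]
  obtain ⟨w, hw, x₀, hx₀, hkw⟩ := hE.ecT_factor haH haa hk
  have h1 : x₀ * (u * x * u⁻¹) ∈ θ :=
    θ.mul_mem (hL.ecX_subset hE haH hx₀) (hL.ecX_subset hE haH hx₁)
  obtain ⟨x₂, hx₂, u₂, hu₂, he⟩ := hL.theta_decomp hE haH h1
  refine ⟨w * x₂, hE.ecI_mul_ecX haH haa hw hx₂, u₂ * u,
    (ecU H).mul_mem (hL.inf_normalizer_le hE haH hu₂) hu, ?_⟩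
  calc k * u * x = w * (x₀ * (u * x * u⁻¹)) * u := by rw [hkw]; group
    _ = w * x₂ * (u₂ * u) := by rw [he]; group

end ExtClosedInv

end Cfsg.Agent.Lib.Helper53
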