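-- Extremely closed abelian 2-subgroups (helper53): the closure argument (at least two involutions
-- in `H`), the case of a unique involution (from `Z*`), transfer to subgroups and quotients, and
-- the main induction: `G = N_G(H) O(G)`.
import Mathlib
import Cfsg.Agent.Lib.Helper53.ExtClosed2

set_option autoImplicit false

namespace Cfsg.Agent.Lib.Helper53

open Cfsg.Agent.Lib

universe u

section ExtClosedStep

variable {G : Type*} [Group G] [Finite G] {H : Subgroup G}

/-- The set `𝒦 U` (transversal times `O(C_G(H))`). -/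
def ecS (H : Subgroup G) : Set G := {s | ∃ k ∈ ecT H, ∃ u ∈ ecU H, s = k * u}

/-- Elements of the transversal centralizing some involution of `H`. -/
def ecGens (H : Subgroup G) : Set G := {x | ∃ c ∈ H, c ≠ 1 ∧ c * c = 1 ∧ x ∈ ecX H c}

omit [Finite G] in
/-- `Ω₁(H)` for an abelian `H`. -/
def ecE (H : Subgroup G) (hcomm : ∀ x ∈ H, ∀ y ∈ H, x * y = y * x) : Subgroup G where
  carrier := {x | x ∈ H ∧ x * x = 1}
  one_mem' := ⟨H.one_mem, by simp⟩
  mul_mem' := by
    rintro x y ⟨hx, hx2⟩ ⟨hy, hy2⟩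
    refine ⟨H.mul_mem hx hy, ?_⟩
    calc x * y * (x * y) = x * (y * x) * y := by group
      _ = x * (x * y) * y := by rw [hcomm y hy x hx]
      _ = (x * x) * (y * y) := by group
      _ = 1 := by rw [hx2, hy2, one_mul]
  inv_mem' := by
    rintro x ⟨hx, hx2⟩
    refine ⟨H.inv_mem hx, ?_⟩
    have : x⁻¹ = x := inv_eq_of_mul_eq_one_right hx2
    rw [this, hx2]

omit [Finite G] in
theorem mem_ecE {hcomm : ∀ x ∈ H, ∀ y ∈ H, x * y = y * x} {x : G} :
    x ∈ ecE H hcomm ↔ x ∈ H ∧ x * x = 1 := Iff.rfl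

theorem ec_zpow_of_sq {M : Type*} [Group M] {g : M} (hg : g * g = 1) (i : ℤ) :
    g ^ i = 1 ∨ g ^ i = g := by
  have h2 : g ^ (2 : ℤ) = 1 := by
    have : g ^ (2 : ℤ) = g * g := by
      rw [show (2 : ℤ) = 1 + 1 from rfl, zpow_add, zpow_one]
    rw [this, hg]
  have hi : i = 2 * (i / 2) + i % 2 := (Int.mul_ediv_add_emod i 2).symm
  rcases Int.emod_two_eq_zero_or_one i with h | h
  · left; rw [hi, h, add_zero, zpow_mul, h2, one_zpow]
  · right; rw [hi, h, zpow_add, zpow_mul, h2, one_zpow, one_mul, zpow_one]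

omit [Finite G] in
theorem ecE_not_isCyclic (hcomm : ∀ x ∈ H, ∀ y ∈ H, x * y = y * x) {a b : G}
    (haH : a ∈ H) (hbH : b ∈ H) (ha1 : a ≠ 1) (hb1 : b ≠ 1) (haa : a * a = 1) (hbb : b * b = 1)
    (hab : a ≠ b) : ¬ IsCyclic (ecE H hcomm) := by
  intro hcyc
  obtain ⟨g, hg⟩ := hcyc.exists_generator
  have hgg : g * g = 1 := Subtype.ext g.2.2
  have key : ∀ x : ecE H hcomm, x = 1 ∨ x = g := by
    intro x
    obtain ⟨i, hi⟩ := Subgroup.mem_zpowers_iff.mp (hg x)
    rw [← hi]
    exact ec_zpow_of_sq hgg i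
  have h1 := key ⟨a, haH, haa⟩
  have h2 := key ⟨b, hbH, hbb⟩
  rcases h1 with h1 | h1
  · exact ha1 (congrArg Subtype.val h1)
  · rcases h2 with h2 | h2
    · exact hb1 (congrArg Subtype.val h2)
    · exact hab ((congrArg Subtype.val h1).trans (congrArg Subtype.val h2).symm)

/-- The closure argument: if `H` has two distinct involutions and every involution of `H` has
local data, then `G = N_G(H) Y` with `Y` normal of odd order. -/
theorem ec_step_noncyclic (hE : ECHyp H)
    (hloc : ∀ a ∈ H, a ≠ 1 → a * a = 1 → ∃ θ, ECLocal H a θ)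
    {a b : G} (haH : a ∈ H) (hbH : b ∈ H) (ha1 : a ≠ 1) (hb1 : b ≠ 1) (haa : a * a = 1)
    (hbb : b * b = 1) (hab : a ≠ b) :
    ∃ Y : Subgroup G, Y.Normal ∧ (Nat.card Y).Coprime 2 ∧
      ∀ g : G, ∃ n ∈ Subgroup.normalizer (H : Set G), ∃ y ∈ Y, g = n * y := by
  have : Fact (Nat.Prime 2) := ⟨Nat.prime_two⟩
  -- right multiplication by generators preserves `ecS`
  have hstep : ∀ x ∈ ecGens H, ∀ s ∈ ecS H, s * x ∈ ecS H := by
    rintro x ⟨c, hcH, hc1, hcc, hx⟩ s ⟨k, hk, u, hu, rfl⟩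
    obtain ⟨θ, hL⟩ := hloc c hcH hc1 hcc
    obtain ⟨k', hk', u', hu', e⟩ := hL.step hE hcH hcc hk hu hx
    exact ⟨k', hk', u', hu', e⟩
  have hclos : ∀ y ∈ Subgroup.closure (ecGens H), ∀ s ∈ ecS H, s * y ∈ ecS H := by
    intro y hy
    induction hy using Subgroup.closure_induction with
    | mem x hx => exact hstep x hx
    | one => intro s hs; rw [mul_one]; exact hs
    | mul x y _ _ ihx ihy =>
      intro s hs
      rw [← mul_assoc]
      exact ihy _ (ihx s hs)
    | inv x _ ihx =>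
      have hpow : ∀ n : ℕ, ∀ s ∈ ecS H, s * x ^ n ∈ ecS H := by
        intro n
        induction n with
        | zero => intro s hs; rw [pow_zero, mul_one]; exact hs
        | succ n ih =>
          intro s hs
          rw [pow_succ, ← mul_assoc]
          exact ihx _ (ih s hs)
      have hinv : x⁻¹ = x ^ (orderOf x - 1) := by
        apply inv_eq_of_mul_eq_one_right
        rw [← pow_succ', Nat.sub_add_cancel (orderOf_pos x), pow_orderOf_eq_one]
      intro s hs
      rw [hinv]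
      exact hpow _ s hs
  -- the transversal lies in the closure of the generators
  have hgen : ecT H ⊆ (Subgroup.closure (ecGens H) : Set G) := by
    intro k hk
    have hkO : k ∈ ecO H k := hE.ecT_mem_ecO hk
    have hR : ¬ 2 ∣ Nat.card (ecO H k) := by
      have := ecO_coprime H k
      exact (Nat.Prime.coprime_iff_not_dvd Nat.prime_two).mp this.symm
    have hUR : ecE H hE.comm ≤ Subgroup.normalizer (ecO H k : Set G) := fun x hx =>
      le_normalizer_ecO H k hx.1
    have hle := Helper48.coprime_generation_le (p := 2) (ecO H k) (ecE H hE.comm)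
      (fun x hx y hy => hE.comm x hx.1 y hy.1)
      (fun x hx => by rw [pow_two]; exact hx.2)
      (ecE_not_isCyclic hE.comm haH hbH ha1 hb1 haa hbb hab) hR hUR
      (Subgroup.closure (ecGens H))
      (by
        intro u hu hu1 y hy
        apply Subgroup.subset_closure
        refine ⟨u, hu.1, hu1, hu.2, hE.ecO_subset_ecT hy.1, ?_⟩
        exact (Subgroup.mem_centralizer_singleton_iff.mp hy.2).symm)
    exact hle hkO
  have hgens_sub : ecGens H ⊆ ecT H := by
    rintro x ⟨c, -, -, -, hx⟩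
    exact hx.1
  have hYeq : Subgroup.closure (ecT H) = Subgroup.closure (ecGens H) :=
    le_antisymm ((Subgroup.closure_le _).mpr hgen) (Subgroup.closure_mono hgens_sub)
  have hYdec : ∀ y ∈ Subgroup.closure (ecT H), ∃ k ∈ ecT H, ∃ u ∈ ecU H, y = k * u := by
    intro y hy
    rw [hYeq] at hy
    have h1 : (1 : G) ∈ ecS H := ⟨1, one_mem_ecT H, 1, (ecU H).one_mem, by simp⟩
    have := hclos y hy 1 h1
    rw [one_mul] at this
    exact this
  -- conjugation by the normalizer preserves `Y`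
  have hNconj : ∀ m ∈ Subgroup.normalizer (H : Set G), ∀ y ∈ Subgroup.closure (ecT H),
      m * y * m⁻¹ ∈ Subgroup.closure (ecT H) := by
    intro m hm y hy
    induction hy using Subgroup.closure_induction with
    | mem x hx => exact Subgroup.subset_closure (hE.ecT_conj hm hx)
    | one => simp
    | mul x y _ _ ihx ihy =>
      have e : m * (x * y) * m⁻¹ = (m * x * m⁻¹) * (m * y * m⁻¹) := by group
      rw [e]; exact Subgroup.mul_mem _ ihx ihy
    | inv x _ ihx =>
      have e : m * x⁻¹ * m⁻¹ = (m * x * m⁻¹)⁻¹ := by group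
      rw [e]; exact Subgroup.inv_mem _ ihx
  have hnormal : (Subgroup.closure (ecT H)).Normal := by
    refine ⟨fun y hy g => ?_⟩
    obtain ⟨k, hk, m, hm, hg⟩ := hE.exists_ecT g
    have hkY : k ∈ Subgroup.closure (ecT H) := Subgroup.subset_closure hk
    have e : g * y * g⁻¹ = k * (m * y * m⁻¹) * k⁻¹ := by rw [hg]; group
    rw [e]
    exact Subgroup.mul_mem _ (Subgroup.mul_mem _ hkY (hNconj m hm y hy)) (Subgroup.inv_mem _ hkY)
  refine ⟨Subgroup.closure (ecT H), hnormal, ?_, ?_⟩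
  · -- odd order
    have hnd : ¬ 2 ∣ Nat.card (Subgroup.closure (ecT H)) := by
      intro hdvd
      obtain ⟨z, hz⟩ := exists_prime_orderOf_dvd_card' (p := 2) hdvd
      have hz2 : orderOf (z : G) = 2 := by rw [Subgroup.orderOf_coe]; exact hz
      obtain ⟨P, hHP⟩ := hE.p2.exists_le_sylow
      obtain ⟨g, hg⟩ := exists_conj_le_sylow P (Helper50.isPGroup_zpowers_of_orderOf (z : G) hz2)
      have hz'P : g * (z : G) * g⁻¹ ∈ (P : Subgroup G) := hg _ (Subgroup.mem_zpowers _)
      have hz'N : g * (z : G) * g⁻¹ ∈ Subgroup.normalizer (H : Set G) :=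
        hE.sylow_le_normalizer P hHP hz'P
      have hz'Y : g * (z : G) * g⁻¹ ∈ Subgroup.closure (ecT H) := hnormal.conj_mem _ z.2 g
      obtain ⟨k, hk, u, hu, he⟩ := hYdec _ hz'Y
      have huN : u ∈ Subgroup.normalizer (H : Set G) :=
        Subgroup.centralizer_le_normalizer _ (ecU_le H hu)
      have hkN : k ∈ Subgroup.normalizer (H : Set G) := by
        have : k = g * (z : G) * g⁻¹ * u⁻¹ := by rw [he]; group
        rw [this]
        exact Subgroup.mul_mem _ hz'N (Subgroup.inv_mem _ huN)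
      have hk1 : k = 1 := hE.ecT_inter_normalizer hk hkN
      rw [hk1, one_mul] at he
      have hodd : Odd (orderOf (g * (z : G) * g⁻¹)) := by
        rw [he]; exact ec_odd_of_coprime (ecU_coprime H) hu
      rw [orderOf_conj_eq, hz2] at hodd
      exact absurd hodd (by decide)
    exact ((Nat.Prime.coprime_iff_not_dvd Nat.prime_two).mpr hnd).symm
  · intro g
    obtain ⟨k, hk, m, hm, hg⟩ := hE.exists_ecT g⁻¹
    refine ⟨m⁻¹, Subgroup.inv_mem _ hm, k⁻¹,
      Subgroup.inv_mem _ (Subgroup.subset_closure hk), ?_⟩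
    have : g = (g⁻¹)⁻¹ := by group
    rw [this, hg]; group

/-- If `t` is the only involution of `H`, then `t` is isolated in a Sylow 2-subgroup
containing `H`. -/
theorem ECHyp.isolated_of_unique (hE : ECHyp H) {t : G} (htH : t ∈ H) (ht1 : t ≠ 1)
    (htt : t * t = 1) (huniq : ∀ c ∈ H, c ≠ 1 → c * c = 1 → c = t) (P : Sylow 2 G)
    (hHP : H ≤ (P : Subgroup G)) :
    ∀ g : G, g * t * g⁻¹ ∈ (P : Subgroup G) → g * t * g⁻¹ = t := by
  intro g hg
  have hN : g * t * g⁻¹ ∈ Subgroup.normalizer (H : Set G) := hE.sylow_le_normalizer P hHP hg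
  have hK : g * t * g⁻¹ ∈ ecK H g := map_le_ecK H g (ec_conj_mem_map g htH)
  have hmem : g * t * g⁻¹ ∈ H := by
    have h1 : g * t * g⁻¹ ∈ ecK H g ⊓ Subgroup.normalizer (H : Set G) := ⟨hK, hN⟩
    have h2 : ecK H g ⊓ Subgroup.normalizer (H : Set G) = H := hE.cl g
    rw [h2] at h1
    exact h1
  apply huniq _ hmem
  · intro h
    apply ht1
    have : t = g⁻¹ * (g * t * g⁻¹) * g := by group
    rw [this, h]; group
  · calc g * t * g⁻¹ * (g * t * g⁻¹) = g * (t * t) * g⁻¹ := by group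
      _ = 1 := by rw [htt]; group

/-- The case of a unique involution `t`: `t` is central modulo an odd order normal subgroup. -/
theorem ec_step_cyclic (hE : ECHyp H) {t : G} (htH : t ∈ H) (htt : t * t = 1) {θ : Subgroup G}
    (hL : ECLocal H t θ) (N₀ : Subgroup G) (hN₀ : N₀.Normal) (hodd : (Nat.card N₀).Coprime 2)
    (hcomm : ∀ g : G, t * g * t⁻¹ * g⁻¹ ∈ N₀) :
    ∃ Y : Subgroup G, Y.Normal ∧ (Nat.card Y).Coprime 2 ∧
      ∀ g : G, ∃ n ∈ Subgroup.normalizer (H : Set G), ∃ y ∈ Y, g = n * y := by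
  have htinv : t⁻¹ = t := inv_eq_of_mul_eq_one_right htt
  -- every `g` is `w⁻¹ c` with `w ∈ N₀` and `c` centralizing `t`
  have hfact : ∀ g : G, ∃ w ∈ N₀, ∃ c ∈ Subgroup.centralizer ({t} : Set G), g = w⁻¹ * c := by
    intro g
    obtain ⟨m, hm⟩ : ∃ m : G, m = t * g * t⁻¹ * g⁻¹ := ⟨_, rfl⟩
    have hmN : m ∈ N₀ := by rw [hm]; exact hcomm g
    have hminv : t * m * t⁻¹ = m⁻¹ := by
      rw [hm, htinv]
      have e1 : t * (t * g * t * g⁻¹) * t = (t * t) * g * t * g⁻¹ * t := by group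
      rw [e1, htt]
      have e2 : (t * g * t * g⁻¹)⁻¹ = g * t⁻¹ * g⁻¹ * t⁻¹ := by group
      rw [e2, htinv]; group
    have hmodd : Odd (orderOf m) := ec_odd_of_coprime hodd hmN
    obtain ⟨j, hj⟩ := hmodd
    obtain ⟨w, hw⟩ : ∃ w : G, w = m ^ (j + 1) := ⟨_, rfl⟩
    have hwN : w ∈ N₀ := by rw [hw]; exact N₀.pow_mem hmN _
    have hww : w * w = m := by
      rw [hw, ← pow_add]
      have : j + 1 + (j + 1) = orderOf m + 1 := by omega
      rw [this, pow_succ, pow_orderOf_eq_one, one_mul]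
    have hwinv : t * w * t⁻¹ = w⁻¹ := by
      rw [hw, ← conj_pow, hminv, inv_pow]
    refine ⟨w, hwN, w * g, ?_, by group⟩
    rw [Subgroup.mem_centralizer_singleton_iff]
    have h1 : t * g * t⁻¹ = m * g := by rw [hm]; group
    have h2 : t * (w * g) * t⁻¹ = w * g := by
      have e : t * (w * g) * t⁻¹ = (t * w * t⁻¹) * (t * g * t⁻¹) := by group
      rw [e, hwinv, h1, ← hww]; group
    calc w * g * t = (t * (w * g) * t⁻¹) * t := by rw [h2]
      _ = t * (w * g) := by group
  have hθN : θ ≤ Subgroup.normalizer (N₀ : Set G) := fun x _ => by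
    rw [Subgroup.mem_normalizer_iff]
    intro h
    exact ⟨fun hh => hN₀.conj_mem h hh x, fun hh => by
      have := hN₀.conj_mem _ hh x⁻¹
      have e : x⁻¹ * (x * h * x⁻¹) * x⁻¹⁻¹ = h := by group
      rw [e] at this; exact this⟩
  have hCconj : ∀ c ∈ Subgroup.centralizer ({t} : Set G), ∀ y ∈ N₀ ⊔ θ, c * y * c⁻¹ ∈ N₀ ⊔ θ := by
    intro c hc y hy
    obtain ⟨n, hn, o, ho, rfl⟩ := ec_mem_sup_decomp hθN hy
    have e : c * (n * o) * c⁻¹ = (c * n * c⁻¹) * (c * o * c⁻¹) := by group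
    rw [e]
    exact Subgroup.mul_mem_sup (hN₀.conj_mem n hn c)
      ((Subgroup.mem_normalizer_iff.mp (hL.norm hc) o).mp ho)
  have hnormal : (N₀ ⊔ θ).Normal := by
    refine ⟨fun y hy g => ?_⟩
    obtain ⟨w, hw, c, hc, hg⟩ := hfact g
    have hwY : w ∈ N₀ ⊔ θ := Subgroup.mem_sup_left hw
    have e : g * y * g⁻¹ = w⁻¹ * (c * y * c⁻¹) * w := by rw [hg]; group
    rw [e]
    exact Subgroup.mul_mem _ (Subgroup.mul_mem _ (Subgroup.inv_mem _ hwY) (hCconj c hc y hy)) hwY
  refine ⟨N₀ ⊔ θ, hnormal, ?_, ?_⟩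
  · have h1 : Nat.card ↥(N₀ ⊔ θ) ∣ Nat.card N₀ * Nat.card θ :=
      Helper50.card_sup_dvd_of_normal_left N₀ θ
    exact Nat.Coprime.coprime_dvd_left h1 (Nat.Coprime.mul_left hodd hL.odd)
  · intro g
    obtain ⟨w, hw, c, hc, hg⟩ := hfact g⁻¹
    obtain ⟨n, hn, o, ho, hce⟩ := hL.decomp c⁻¹ (Subgroup.inv_mem _ hc)
    refine ⟨n, hn, o * w,
      Subgroup.mul_mem _ (Subgroup.mem_sup_right ho) (Subgroup.mem_sup_left hw), ?_⟩
    have e1 : g = c⁻¹ * w := by
      have : g = (g⁻¹)⁻¹ := by group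
      rw [this, hg]; group
    rw [e1, hce, mul_assoc]

end ExtClosedStep

section ExtClosedTransfer

variable {G : Type*} [Group G] [Finite G] {H : Subgroup G}

theorem ec_coe_mem_normalizer {L : Subgroup G} (hHL : H ≤ L) {n : L}
    (hn : n ∈ Subgroup.normalizer ((H.subgroupOf L : Subgroup L) : Set L)) :
    (n : G) ∈ Subgroup.normalizer (H : Set G) := by
  apply ec_mem_normalizer_of_conj_le
  intro y hy
  have h1 : (⟨y, hHL hy⟩ : L) ∈ H.subgroupOf L := Subgroup.mem_subgroupOf.mpr hy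
  have h2 := (Subgroup.mem_normalizer_iff.mp hn _).mp h1
  exact Subgroup.mem_subgroupOf.mp h2

/-- The hypotheses pass to subgroups containing `H`. -/
theorem ECHyp.subgroupOf (hE : ECHyp H) (L : Subgroup G) (hHL : H ≤ L) :
    ECHyp (H.subgroupOf L) := by
  refine ⟨hE.p2.comap_subtype, ?_, ?_⟩
  · intro x hx y hy
    exact Subtype.ext (hE.comm x (Subgroup.mem_subgroupOf.mp hx) y (Subgroup.mem_subgroupOf.mp hy))
  · intro g
    apply le_antisymm
    · rintro x ⟨hx1, hx2⟩
      rw [Subgroup.mem_subgroupOf]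
      have h1 : (x : G) ∈ H ⊔ H.map (MulAut.conj (g : G)).toMonoidHom := by
        have h0 : (x : G) ∈ (H.subgroupOf L ⊔
            (H.subgroupOf L).map (MulAut.conj g).toMonoidHom).map L.subtype := ⟨x, hx1, rfl⟩
        rw [Subgroup.map_sup] at h0
        have hle : (H.subgroupOf L).map L.subtype ⊔
            ((H.subgroupOf L).map (MulAut.conj g).toMonoidHom).map L.subtype ≤
            H ⊔ H.map (MulAut.conj (g : G)).toMonoidHom := by
          apply sup_le_sup
          · rintro _ ⟨y, hy, rfl⟩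
            exact Subgroup.mem_subgroupOf.mp hy
          · rintro _ ⟨_, ⟨y, hy, rfl⟩, rfl⟩
            exact ⟨(y : G), Subgroup.mem_subgroupOf.mp hy, rfl⟩
        exact hle h0
      have h2 : (x : G) ∈ Subgroup.normalizer (H : Set G) := ec_coe_mem_normalizer hHL hx2
      have h3 : (x : G) ∈ (H ⊔ H.map (MulAut.conj (g : G)).toMonoidHom) ⊓
          Subgroup.normalizer (H : Set G) := ⟨h1, h2⟩
      rw [hE.cl (g : G)] at h3
      exact h3
    · exact le_inf le_sup_left Subgroup.le_normalizer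

/-- The conclusion in `C_G(a)` gives the local data at `a`. -/
theorem ec_local_of_subgroup (hE : ECHyp H) {a : G} (haH : a ∈ H)
    (Y : Subgroup (Subgroup.centralizer ({a} : Set G))) (hYn : Y.Normal)
    (hYodd : (Nat.card Y).Coprime 2)
    (hdec : ∀ g : Subgroup.centralizer ({a} : Set G),
      ∃ n ∈ Subgroup.normalizer
        ((H.subgroupOf (Subgroup.centralizer ({a} : Set G)) : Subgroup _) : Set _),
      ∃ y ∈ Y, g = n * y) :
    ECLocal H a (Y.map (Subgroup.centralizer ({a} : Set G)).subtype) := by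
  have hHL : H ≤ Subgroup.centralizer ({a} : Set G) := hE.le_centralizer haH
  refine ⟨Subgroup.map_subtype_le _, ?_, ?_, ?_⟩
  · apply le_normalizer_of_conj_mem
    rintro c hc _ ⟨y, hy, rfl⟩
    exact ⟨⟨c, hc⟩ * y * ⟨c, hc⟩⁻¹, hYn.conj_mem y hy ⟨c, hc⟩, rfl⟩
  · rw [Subgroup.card_map_of_injective (Subgroup.subtype_injective _)]; exact hYodd
  · intro x hx
    obtain ⟨n, hn, y, hy, he⟩ := hdec ⟨x, hx⟩
    refine ⟨(n : G), ec_coe_mem_normalizer hHL hn, (y : G), ⟨y, hy, rfl⟩, ?_⟩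
    exact congrArg Subtype.val he

theorem ec_mem_normalizer_of_mk (Z : Subgroup G) [Z.Normal] (hZH : Z ≤ H) {x : G}
    (hx : (QuotientGroup.mk' Z) x ∈ Subgroup.normalizer
      ((H.map (QuotientGroup.mk' Z) : Subgroup (G ⧸ Z)) : Set (G ⧸ Z))) :
    x ∈ Subgroup.normalizer (H : Set G) := by
  apply ec_mem_normalizer_of_conj_le
  intro y hy
  have h2 : (QuotientGroup.mk' Z) x * (QuotientGroup.mk' Z) y * ((QuotientGroup.mk' Z) x)⁻¹ ∈
      H.map (QuotientGroup.mk' Z) :=
    (Subgroup.mem_normalizer_iff.mp hx _).mp ⟨y, hy, rfl⟩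
  obtain ⟨h', hh', he⟩ := h2
  have h3 : (QuotientGroup.mk' Z) h' = (QuotientGroup.mk' Z) (x * y * x⁻¹) := by
    rw [he, map_mul, map_mul, map_inv]
  have h4 : h'⁻¹ * (x * y * x⁻¹) ∈ Z := QuotientGroup.eq.mp h3
  have e : x * y * x⁻¹ = h' * (h'⁻¹ * (x * y * x⁻¹)) := by group
  rw [e]
  exact H.mul_mem hh' (hZH h4)

/-- The hypotheses pass to quotients by normal subgroups contained in `H`. -/
theorem ECHyp.map_mk (hE : ECHyp H) (Z : Subgroup G) [Z.Normal] (hZH : Z ≤ H) :
    ECHyp (H.map (QuotientGroup.mk' Z)) := by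
  refine ⟨hE.p2.map _, ?_, ?_⟩
  · rintro _ ⟨x, hx, rfl⟩ _ ⟨y, hy, rfl⟩
    rw [← map_mul, ← map_mul, hE.comm x hx y hy]
  · intro gbar
    obtain ⟨g, rfl⟩ := QuotientGroup.mk'_surjective Z gbar
    apply le_antisymm
    · rintro xbar ⟨hx1, hx2⟩
      have h1 : xbar ∈ (ecK H g).map (QuotientGroup.mk' Z) := by
        refine (sup_le ?_ ?_ : _ ≤ (ecK H g).map (QuotientGroup.mk' Z)) hx1
        · exact Subgroup.map_mono (le_ecK H g)
        · rintro _ ⟨_, ⟨h, hh, rfl⟩, rfl⟩
          refine ⟨g * h * g⁻¹, map_le_ecK H g (ec_conj_mem_map g hh), ?_⟩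
          rw [map_mul, map_mul, map_inv]
          rfl
      obtain ⟨x, hxK, rfl⟩ := h1
      have hxN : x ∈ Subgroup.normalizer (H : Set G) := ec_mem_normalizer_of_mk Z hZH hx2
      have h5 : x ∈ ecK H g ⊓ Subgroup.normalizer (H : Set G) := ⟨hxK, hxN⟩
      have h6 : ecK H g ⊓ Subgroup.normalizer (H : Set G) = H := hE.cl g
      rw [h6] at h5
      exact ⟨x, h5, rfl⟩
    · exact le_inf le_sup_left Subgroup.le_normalizer

/-- The conclusion in `G/Z` (`Z ≤ H` central) lifts to `G`. -/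
theorem ec_of_quotient (hE : ECHyp H) (Z : Subgroup G) [Z.Normal] (hZH : Z ≤ H)
    (hZcent : ∀ z ∈ Z, ∀ g : G, g * z = z * g)
    (Ybar : Subgroup (G ⧸ Z)) (hYn : Ybar.Normal) (hYodd : (Nat.card Ybar).Coprime 2)
    (hdec : ∀ gbar : G ⧸ Z, ∃ n ∈ Subgroup.normalizer
        ((H.map (QuotientGroup.mk' Z) : Subgroup (G ⧸ Z)) : Set (G ⧸ Z)),
      ∃ y ∈ Ybar, gbar = n * y) :
    ∃ Y : Subgroup G, Y.Normal ∧ (Nat.card Y).Coprime 2 ∧
      ∀ g : G, ∃ n ∈ Subgroup.normalizer (H : Set G), ∃ y ∈ Y, g = n * y := by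
  have : Fact (Nat.Prime 2) := ⟨Nat.prime_two⟩
  have hZ2 : IsPGroup 2 Z := hE.p2.to_le hZH
  obtain ⟨O₁, hO₁⟩ : ∃ O₁ : Subgroup G, O₁ = Ybar.comap (QuotientGroup.mk' Z) := ⟨_, rfl⟩
  have hO₁n : O₁.Normal := by rw [hO₁]; exact hYn.comap _
  have hZO : Z ≤ O₁ := by
    intro z hz
    rw [hO₁]
    show (QuotientGroup.mk' Z) z ∈ Ybar
    have : (QuotientGroup.mk' Z) z = 1 := (QuotientGroup.eq_one_iff z).mpr hz
    rw [this]; exact Ybar.one_mem
  have hrel : Z.relIndex O₁ = Nat.card Ybar := by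
    have h1 : ((⊥ : Subgroup (G ⧸ Z)).comap (QuotientGroup.mk' Z)).relIndex O₁ =
        Nat.card Ybar := by
      rw [Subgroup.relIndex_comap, Subgroup.relIndex_bot_left, hO₁,
        Subgroup.map_comap_eq_self_of_surjective (QuotientGroup.mk'_surjective Z)]
    have h2 : (⊥ : Subgroup (G ⧸ Z)).comap (QuotientGroup.mk' Z) = Z := by
      rw [MonoidHom.comap_bot, QuotientGroup.ker_mk']
    rw [h2] at h1
    exact h1
  have hsyl : Helper22.IsSyl 2 Z O₁ :=
    ⟨hZO, hZ2, by rw [hrel]; exact (Nat.Prime.coprime_iff_not_dvd Nat.prime_two).mp hYodd.symm⟩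
  obtain ⟨P, hP⟩ := hsyl.exists_sylow
  have hPZ : ∀ z : ↥O₁, z ∈ (P : Subgroup ↥O₁) → (z : G) ∈ Z := by
    intro z hz
    have : z ∈ Z.subgroupOf O₁ := by rw [← hP]; exact hz
    exact Subgroup.mem_subgroupOf.mp this
  have hPc : Subgroup.normalizer ((P : Subgroup ↥O₁) : Set ↥O₁) ≤
      Subgroup.centralizer ((P : Subgroup ↥O₁) : Set ↥O₁) := by
    intro x _
    rw [Subgroup.mem_centralizer_iff]
    intro z hz
    exact Subtype.ext (hZcent z (hPZ z hz) x).symm
  have hcompl := Helper50.pPrimeCore_isComplement' P hPc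
  have hWn : (Helper23.coreOf 2 O₁).Normal := by
    rw [← Subgroup.normalizer_eq_top_iff]
    have h1 := Helper22.coreOf_normalizer_le 2 O₁
    have h2 : Subgroup.normalizer (O₁ : Set G) = ⊤ := Subgroup.normalizer_eq_top_iff.mpr hO₁n
    rw [h2] at h1
    exact top_le_iff.mp h1
  refine ⟨Helper23.coreOf 2 O₁, hWn, Helper22.coreOf_coprime' 2 O₁, ?_⟩
  intro g
  obtain ⟨nbar, hn, ybar, hy, he⟩ := hdec (QuotientGroup.mk' Z g)
  obtain ⟨n, rfl⟩ := QuotientGroup.mk'_surjective Z nbar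
  obtain ⟨y, rfl⟩ := QuotientGroup.mk'_surjective Z ybar
  have hnN : n ∈ Subgroup.normalizer (H : Set G) := ec_mem_normalizer_of_mk Z hZH hn
  have hyO : y ∈ O₁ := by rw [hO₁]; exact hy
  have hz : (n * y)⁻¹ * g ∈ Z := by
    apply QuotientGroup.eq.mp
    have : (QuotientGroup.mk' Z) (n * y) = (QuotientGroup.mk' Z) g := by
      rw [he, map_mul]
    exact this
  obtain ⟨y', hy'⟩ : ∃ y' : G, y' = y * ((n * y)⁻¹ * g) := ⟨_, rfl⟩
  have hy'O : y' ∈ O₁ := by rw [hy']; exact O₁.mul_mem hyO (hZO hz)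
  have hg : g = n * y' := by rw [hy']; group
  obtain ⟨⟨⟨w, hw⟩, ⟨z, hz'⟩⟩, hwz, -⟩ := hcompl.existsUnique ⟨y', hy'O⟩
  have hzZ : (z : G) ∈ Z := hPZ z hz'
  have hwW : (w : G) ∈ Helper23.coreOf 2 O₁ := ⟨w, hw, rfl⟩
  have hy'e : y' = (w : G) * (z : G) := (congrArg Subtype.val hwz).symm
  refine ⟨n * (z : G), Subgroup.mul_mem _ hnN (Subgroup.le_normalizer (hZH hzZ)), (w : G), hwW, ?_⟩
  rw [hg, hy'e, hZcent (z : G) hzZ (w : G)]
  group

end ExtClosedTransfer

section ExtClosedMain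

/-- Main theorem, by induction on the order: given the `Z*`-theorem, an extremely closed abelian
2-subgroup `H` has `G = N_G(H) Y` for a normal subgroup `Y` of odd order. -/
theorem ec_main
    (hZ : ∀ (G : Type u) [Group G] [Finite G] (P : Sylow 2 G) (t : G), orderOf t = 2 →
      t ∈ P → (∀ g : G, g * t * g⁻¹ ∈ P → g * t * g⁻¹ = t) →
      ∃ N : Subgroup G, N.Normal ∧ Odd (Nat.card N) ∧ ∀ g : G, t * g * t⁻¹ * g⁻¹ ∈ N) :
    ∀ (n : ℕ) (G : Type u) [Group G] [Finite G] (H : Subgroup G), Nat.card G ≤ n → ECHyp H →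
      ∃ Y : Subgroup G, Y.Normal ∧ (Nat.card Y).Coprime 2 ∧
        ∀ g : G, ∃ m ∈ Subgroup.normalizer (H : Set G), ∃ y ∈ Y, g = m * y := by
  intro n
  induction n with
  | zero =>
    intro G _ _ H hcard _
    have := Nat.card_pos (α := G)
    omega
  | succ n ih =>
    intro G _ _ H hcard hE
    have : Fact (Nat.Prime 2) := ⟨Nat.prime_two⟩
    by_cases hbot : H = ⊥
    · refine ⟨⊥, inferInstance, by simp, fun g => ⟨g, ?_, 1, Subgroup.one_mem _, by simp⟩⟩
      rw [hbot, Subgroup.mem_normalizer_iff]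
      intro h
      simp
    · by_cases hA : ∃ a ∈ H, a ≠ 1 ∧ a * a = 1 ∧ ∀ g : G, g * a = a * g
      · -- a central involution in `H`: pass to the quotient
        obtain ⟨a, haH, ha1, haa, hcent⟩ := hA
        have hZcent : ∀ z ∈ Subgroup.zpowers a, ∀ g : G, g * z = z * g := by
          intro z hz g
          obtain ⟨i, rfl⟩ := Subgroup.mem_zpowers_iff.mp hz
          exact (show Commute g a from hcent g).zpow_right i
        have hZn : (Subgroup.zpowers a).Normal := by
          refine ⟨fun z hz g => ?_⟩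
          have : g * z * g⁻¹ = z := by rw [hZcent z hz g]; group
          rw [this]; exact hz
        have hZH : Subgroup.zpowers a ≤ H := by rw [Subgroup.zpowers_le]; exact haH
        have hcardq : Nat.card (G ⧸ Subgroup.zpowers a) ≤ n := by
          have h1 := Subgroup.card_eq_card_quotient_mul_card_subgroup (Subgroup.zpowers a)
          have h2 : 1 < Nat.card (Subgroup.zpowers a) := by
            rw [Subgroup.one_lt_card_iff_ne_bot]
            intro h
            apply ha1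
            have : a ∈ (⊥ : Subgroup G) := by rw [← h]; exact Subgroup.mem_zpowers a
            exact Subgroup.mem_bot.mp this
          have h3 := Nat.card_pos (α := G ⧸ Subgroup.zpowers a)
          nlinarith
        obtain ⟨Ybar, hYn, hYodd, hdec⟩ := ih (G ⧸ Subgroup.zpowers a)
          (H.map (QuotientGroup.mk' (Subgroup.zpowers a))) hcardq (hE.map_mk _ hZH)
        exact ec_of_quotient hE (Subgroup.zpowers a) hZH hZcent Ybar hYn hYodd hdec
      · -- no involution of `H` is central: local data at every involution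
        push Not at hA
        have hloc : ∀ a ∈ H, a ≠ 1 → a * a = 1 → ∃ θ, ECLocal H a θ := by
          intro a haH ha1 haa
          obtain ⟨g, hg⟩ := hA a haH ha1 haa
          have hlt : Nat.card (Subgroup.centralizer ({a} : Set G)) ≤ n := by
            have h1 := Subgroup.card_le_card_group (H := Subgroup.centralizer ({a} : Set G))
            have h2 : Nat.card (Subgroup.centralizer ({a} : Set G)) ≠ Nat.card G := by
              intro h
              have h3 := Subgroup.eq_top_of_card_eq _ h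
              have h4 : g ∈ Subgroup.centralizer ({a} : Set G) := by rw [h3]; trivial
              exact hg (Subgroup.mem_centralizer_singleton_iff.mp h4)
            omega
          obtain ⟨Y, hYn, hYodd, hdec⟩ := ih (Subgroup.centralizer ({a} : Set G))
            (H.subgroupOf _) hlt (hE.subgroupOf _ (hE.le_centralizer haH))
          exact ⟨_, ec_local_of_subgroup hE haH Y hYn hYodd hdec⟩
        obtain ⟨t, htH, ht1, htt⟩ : ∃ t ∈ H, t ≠ 1 ∧ t * t = 1 := by
          have hdvd : 2 ∣ Nat.card H := by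
            obtain ⟨k, hk⟩ := (IsPGroup.iff_card).mp hE.p2
            have hk0 : k ≠ 0 := by
              rintro rfl
              rw [pow_zero] at hk
              exact hbot (Subgroup.eq_bot_of_card_eq _ hk)
            rw [hk]
            exact dvd_pow_self 2 hk0
          obtain ⟨x, hx⟩ := exists_prime_orderOf_dvd_card' (p := 2) hdvd
          have hx2 : orderOf (x : G) = 2 := by rw [Subgroup.orderOf_coe]; exact hx
          refine ⟨(x : G), x.2, ?_, ?_⟩
          · intro h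
            rw [h, orderOf_one] at hx2
            omega
          · rw [← pow_two, ← hx2, pow_orderOf_eq_one]
        by_cases hC : ∃ b ∈ H, b ≠ 1 ∧ b * b = 1 ∧ b ≠ t
        · obtain ⟨b, hbH, hb1, hbb, hbt⟩ := hC
          exact ec_step_noncyclic hE hloc htH hbH ht1 hb1 htt hbb (Ne.symm hbt)
        · push Not at hC
          obtain ⟨θ, hL⟩ := hloc t htH ht1 htt
          obtain ⟨P, hHP⟩ := hE.p2.exists_le_sylow
          have ht2 : orderOf t = 2 := orderOf_eq_prime (by rw [pow_two]; exact htt) ht1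
          obtain ⟨N₀, hN₀, hodd, hcomm⟩ := hZ G P t ht2 (hHP htH)
            (hE.isolated_of_unique htH ht1 htt hC P hHP)
          exact ec_step_cyclic hE htH htt hL N₀ hN₀ (Nat.coprime_two_right.mpr hodd) hcomm

end ExtClosedMain

end Cfsg.Agent.Lib.Helper53
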