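import Mathlib
import Cfsg.Agent.Lib.Helper41.SL2Quart
import Cfsg.Agent.Lib.Helper5.PSL2

set_option autoImplicit false

namespace Cfsg.Agent.Lib.Helper53

open Matrix Cfsg.Agent.Lib.Helper41

section matrix

variable {F : Type*} [Field F] [Fintype F]

/-- In a finite field of odd order every element is a sum of two squares. -/
theorem exists_sq_add_sq_eq (hF : Odd (Fintype.card F)) (c : F) :
    ∃ u v : F, u ^ 2 + v ^ 2 = c := by
  have hodd : Fintype.card F % 2 = 1 := Nat.odd_iff.mp hF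
  obtain ⟨a, b, hab⟩ := FiniteField.exists_root_sum_quadratic
    (f := (Polynomial.X : Polynomial F) ^ 2) (g := Polynomial.X ^ 2 - Polynomial.C c)
    (Polynomial.degree_X_pow 2) (Polynomial.degree_X_pow_sub_C (by norm_num) c) hodd
  refine ⟨a, b, ?_⟩
  simp only [Polynomial.eval_pow, Polynomial.eval_X, Polynomial.eval_sub, Polynomial.eval_C] at hab
  linear_combination hab

/-- In `SL₂` over a finite field of odd order, an element commuting with all elements of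
square `-1` is `±1`. -/
theorem sl2_centralizer_quart (hF : Odd (Fintype.card F))
    (X : Matrix.SpecialLinearGroup (Fin 2) F)
    (hX : ∀ A : Matrix.SpecialLinearGroup (Fin 2) F, A * A = negOne → X * A = A * X) :
    X = 1 ∨ X = negOne := by
  have h2 : (2 : F) ≠ 0 := Cfsg.Agent.Lib.Helper5.two_ne_zero_of_odd_card hF
  obtain ⟨a, b, hab⟩ := exists_sq_add_sq_eq hF (-1 : F)
  have hSdet : (!![a, b; b, -a] : Matrix (Fin 2) (Fin 2) F).det = 1 := by
    rw [Matrix.det_fin_two_of]; linear_combination -hab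
  obtain ⟨S, hS⟩ : ∃ S : Matrix.SpecialLinearGroup (Fin 2) F, S.1 = !![a, b; b, -a] :=
    ⟨⟨_, hSdet⟩, rfl⟩
  have hS2 : S * S = negOne := by
    rw [sq_eq_negOne_iff, hS]; simp [Matrix.trace_fin_two]
  have h1 := congrArg Subtype.val (hX weylW weylW_sq)
  have h3 := congrArg Subtype.val (hX S hS2)
  rw [Matrix.SpecialLinearGroup.coe_mul, Matrix.SpecialLinearGroup.coe_mul] at h1 h3
  rw [weylW_coe] at h1
  rw [hS] at h3
  have hd := X.det_coe
  rw [Matrix.det_fin_two] at hd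
  have e00 := congrFun (congrFun h1 0) 0
  have e01 := congrFun (congrFun h1 0) 1
  have f00 := congrFun (congrFun h3 0) 0
  have f01 := congrFun (congrFun h3 0) 1
  simp [Matrix.mul_apply, Fin.sum_univ_two] at e00 e01 f00 f01
  have hyb : X.1 0 1 * b = 0 := by
    have : (2 : F) * (X.1 0 1 * b) = 0 := by linear_combination f00 - b * e00
    rcases mul_eq_zero.mp this with h | h
    · exact absurd h h2
    · exact h
  have hya : X.1 0 1 * a = 0 := by
    have : (2 : F) * (X.1 0 1 * a) = 0 := by linear_combination -f01 + b * e01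
    rcases mul_eq_zero.mp this with h | h
    · exact absurd h h2
    · exact h
  have hy : X.1 0 1 = 0 := by linear_combination (X.1 0 1) * hab - a * hya - b * hyb
  have hz : X.1 1 0 = 0 := by rw [← e00, hy, neg_zero]
  have hx : (X.1 0 0 - 1) * (X.1 0 0 + 1) = 0 := by
    linear_combination hd + X.1 0 1 * hz + X.1 0 0 * e01
  rcases mul_eq_zero.mp hx with h | h
  · left
    have h00 : X.1 0 0 = 1 := by linear_combination h
    have h11 : X.1 1 1 = 1 := by rw [← e01, h00]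
    apply Subtype.ext
    ext i j
    fin_cases i <;> fin_cases j <;> simp [h00, h11, hy, hz]
  · right
    have h00 : X.1 0 0 = -1 := by linear_combination h
    have h11 : X.1 1 1 = -1 := by rw [← e01, h00]
    apply Subtype.ext
    rw [negOne_coe]
    ext i j
    fin_cases i <;> fin_cases j <;> simp [h00, h11, hy, hz]

end matrix

section transport

/-- the involution/quartic-element structure of `SL₂(q)`, `q` odd, transported to an
isomorphic subgroup with named involution `j` -/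
theorem sl2_sub_props {G : Type*} [Group G] {F : Type*} [Field F] [Fintype F]
    (hF : Odd (Fintype.card F)) (L : Subgroup G)
    (e : ↥L ≃* Matrix.SpecialLinearGroup (Fin 2) F) (j : G) (hjL : j ∈ L) (hjj : j * j = 1)
    (hj1 : j ≠ 1) :
    (∀ t ∈ L, t * t = 1 → t = 1 ∨ t = j) ∧ (∃ a ∈ L, a * a = j) ∧
    (∀ a ∈ L, ∀ b ∈ L, a * a = j → b * b = j → ∃ g ∈ L, g * a * g⁻¹ = b) ∧
    (∀ x ∈ L, (∀ a ∈ L, a * a = j → x * a = a * x) → x = 1 ∨ x = j) := by
  have h2 : (2 : F) ≠ 0 := Cfsg.Agent.Lib.Helper5.two_ne_zero_of_odd_card hF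
  have hej : e ⟨j, hjL⟩ = negOne := by
    have h1 : e ⟨j, hjL⟩ * e ⟨j, hjL⟩ = 1 := by
      rw [← map_mul]
      have : (⟨j, hjL⟩ : L) * ⟨j, hjL⟩ = 1 := Subtype.ext hjj
      rw [this, map_one]
    rcases sq_eq_one_cases h2 _ h1 with h | h
    · exfalso
      apply hj1
      have : (⟨j, hjL⟩ : L) = 1 := by
        apply e.injective
        rw [h, map_one]
      exact congrArg Subtype.val this
    · exact h
  have hsymm : e.symm negOne = ⟨j, hjL⟩ := by rw [← hej, MulEquiv.symm_apply_apply]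
  have key : ∀ (a : L), (a : G) * (a : G) = j → e a * e a = negOne := by
    intro a ha
    rw [← map_mul, ← hej]
    congr 1
    exact Subtype.ext ha
  have key' : ∀ (A : Matrix.SpecialLinearGroup (Fin 2) F), A * A = negOne →
      ((e.symm A : L) : G) * ((e.symm A : L) : G) = j := by
    intro A hA
    have : e.symm A * e.symm A = ⟨j, hjL⟩ := by rw [← map_mul, hA, hsymm]
    exact congrArg Subtype.val this
  refine ⟨?_, ?_, ?_, ?_⟩
  · intro t htL htt
    have h1 : e ⟨t, htL⟩ * e ⟨t, htL⟩ = 1 := by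
      rw [← map_mul]
      have : (⟨t, htL⟩ : L) * ⟨t, htL⟩ = 1 := Subtype.ext htt
      rw [this, map_one]
    rcases sq_eq_one_cases h2 _ h1 with h | h
    · left
      have : (⟨t, htL⟩ : L) = 1 := by
        apply e.injective
        rw [h, map_one]
      exact congrArg Subtype.val this
    · right
      have : (⟨t, htL⟩ : L) = ⟨j, hjL⟩ := by
        apply e.injective
        rw [h, hej]
      exact congrArg Subtype.val this
  · exact ⟨(e.symm weylW : G), (e.symm weylW).2, key' weylW weylW_sq⟩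
  · intro a ha b hb haj hbj
    have h1 := key ⟨a, ha⟩ haj
    have h2' := key ⟨b, hb⟩ hbj
    obtain ⟨P, hP⟩ := conj_of_trace_zero h2 _ _ ((sq_eq_negOne_iff _).mp h1)
      ((sq_eq_negOne_iff _).mp h2')
    refine ⟨(e.symm P : G), (e.symm P).2, ?_⟩
    have : e.symm P * ⟨a, ha⟩ * (e.symm P)⁻¹ = ⟨b, hb⟩ := by
      apply e.injective
      rw [map_mul, map_mul, map_inv, MulEquiv.apply_symm_apply, hP]
    exact congrArg Subtype.val this
  · intro x hx hcomm
    have hX : ∀ A : Matrix.SpecialLinearGroup (Fin 2) F, A * A = negOne →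
        e ⟨x, hx⟩ * A = A * e ⟨x, hx⟩ := by
      intro A hA
      have c := hcomm _ (e.symm A).2 (key' A hA)
      have c' : (⟨x, hx⟩ : L) * e.symm A = e.symm A * ⟨x, hx⟩ := Subtype.ext c
      have := congrArg e c'
      rwa [map_mul, map_mul, MulEquiv.apply_symm_apply] at this
    rcases sl2_centralizer_quart hF _ hX with h | h
    · left
      have : (⟨x, hx⟩ : L) = 1 := by
        apply e.injective
        rw [h, map_one]
      exact congrArg Subtype.val this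
    · right
      have : (⟨x, hx⟩ : L) = ⟨j, hjL⟩ := by
        apply e.injective
        rw [h, hej]
      exact congrArg Subtype.val this

end transport

section pair

variable {G : Type*} [Group G]

/-- abstract properties of a central product `A ∘ B` of two groups of type `SL₂(odd)` with
common central involution `j` -/
structure QuartPair (A B : Subgroup G) (j : G) : Prop where
  comm : ∀ x ∈ A, ∀ y ∈ B, x * y = y * x
  inter : ∀ t ∈ A, t ∈ B → t = 1 ∨ t = j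
  memA : j ∈ A
  memB : j ∈ B
  jj : j * j = 1
  j1 : j ≠ 1
  invA : ∀ t ∈ A, t * t = 1 → t = 1 ∨ t = j
  invB : ∀ t ∈ B, t * t = 1 → t = 1 ∨ t = j
  exA : ∃ a ∈ A, a * a = j
  exB : ∃ a ∈ B, a * a = j
  conjA : ∀ a ∈ A, ∀ b ∈ A, a * a = j → b * b = j → ∃ g ∈ A, g * a * g⁻¹ = b
  conjB : ∀ a ∈ B, ∀ b ∈ B, a * a = j → b * b = j → ∃ g ∈ B, g * a * g⁻¹ = b
  centA : ∀ x ∈ A, (∀ a ∈ A, a * a = j → x * a = a * x) → x = 1 ∨ x = j
  centB : ∀ x ∈ B, (∀ a ∈ B, a * a = j → x * a = a * x) → x = 1 ∨ x = j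

variable {A B : Subgroup G} {j : G}

theorem QuartPair.symm (h : QuartPair A B j) : QuartPair B A j where
  comm := fun x hx y hy => (h.comm y hy x hx).symm
  inter := fun t ht ht' => h.inter t ht' ht
  memA := h.memB
  memB := h.memA
  jj := h.jj
  j1 := h.j1
  invA := h.invB
  invB := h.invA
  exA := h.exB
  exB := h.exA
  conjA := h.conjB
  conjB := h.conjA
  centA := h.centB
  centB := h.centA

/-- elements of `A ⊔ B` are products -/
theorem QuartPair.exists_mul (h : QuartPair A B j) {x : G} (hx : x ∈ A ⊔ B) :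
    ∃ a ∈ A, ∃ b ∈ B, x = a * b := by
  have hcm : ∀ (m : A) (n : B), Commute (A.subtype m) (B.subtype n) :=
    fun m n => h.comm m.1 m.2 n.1 n.2
  have hrange : A ⊔ B = (MonoidHom.noncommCoprod A.subtype B.subtype hcm).range := by
    have h' := MonoidHom.noncommCoprod_range A.subtype B.subtype hcm
    rw [Subgroup.range_subtype, Subgroup.range_subtype] at h'
    exact h'.symm
  rw [hrange] at hx
  obtain ⟨⟨⟨a, ha⟩, ⟨b, hb⟩⟩, rfl⟩ := hx
  exact ⟨a, ha, b, hb, by rw [MonoidHom.noncommCoprod_apply]; rfl⟩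

theorem QuartPair.conj_memA (h : QuartPair A B j) {m d : G} (hm : m ∈ A ⊔ B) (hd : d ∈ A) :
    m * d * m⁻¹ ∈ A := by
  obtain ⟨a, ha, b, hb, rfl⟩ := h.exists_mul hm
  have e : a * b * d * (a * b)⁻¹ = a * d * a⁻¹ := by
    have c := h.comm d hd b hb
    calc a * b * d * (a * b)⁻¹ = a * (b * d) * b⁻¹ * a⁻¹ := by group
      _ = a * (d * b) * b⁻¹ * a⁻¹ := by rw [c]
      _ = a * d * a⁻¹ := by group
  rw [e]
  exact A.mul_mem (A.mul_mem ha hd) (A.inv_mem ha)

theorem QuartPair.conj_memB (h : QuartPair A B j) {m d : G} (hm : m ∈ A ⊔ B) (hd : d ∈ B) :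
    m * d * m⁻¹ ∈ B :=
  h.symm.conj_memA (m := m) (d := d) (by rw [sup_comm]; exact hm) hd

theorem QuartPair.mem_or_mem_of_sq (h : QuartPair A B j) {x : G} (hx : x ∈ A ⊔ B)
    (hxx : x * x = j) : x ∈ A ∨ x ∈ B := by
  obtain ⟨a, ha, b, hb, rfl⟩ := h.exists_mul hx
  have hab : (a * a) * (b * b) = j := by
    have c := h.comm a ha b hb
    calc a * a * (b * b) = a * (a * b) * b := by group
      _ = a * (b * a) * b := by rw [c]
      _ = (a * b) * (a * b) := by group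
      _ = j := hxx
  have ha2 : a * a ∈ B := by
    have : a * a = j * (b * b)⁻¹ := by rw [← hab]; group
    rw [this]
    exact B.mul_mem h.memB (B.inv_mem (B.mul_mem hb hb))
  rcases h.inter (a * a) (A.mul_mem ha ha) ha2 with h1 | h1
  · right
    rcases h.invA a ha h1 with h2 | h2
    · rw [h2, one_mul]; exact hb
    · rw [h2]; exact B.mul_mem h.memB hb
  · left
    have hb2 : b * b = 1 := by
      rw [h1] at hab
      exact mul_left_cancel (a := j) (by rw [hab, mul_one])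
    rcases h.invB b hb hb2 with h2 | h2
    · rw [h2, mul_one]; exact ha
    · rw [h2]; exact A.mul_mem ha h.memA

theorem QuartPair.not_mem_both (h : QuartPair A B j) {x : G} (hxA : x ∈ A) (hxB : x ∈ B)
    (hxx : x * x = j) : False := by
  rcases h.inter x hxA hxB with h1 | h1
  · rw [h1, one_mul] at hxx; exact h.j1 hxx.symm
  · rw [h1, h.jj] at hxx; exact h.j1 hxx.symm

theorem QuartPair.conj_class (h : QuartPair A B j) (D : Subgroup G)
    (hD : ∀ m ∈ A ⊔ B, ∀ d ∈ D, m * d * m⁻¹ ∈ D) (n : G)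
    (hnM : ∀ x ∈ A ⊔ B, n * x * n⁻¹ ∈ A ⊔ B)
    {a₁ : G} (ha₁ : a₁ ∈ A) (ha₁j : a₁ * a₁ = j) (hna : n * a₁ * n⁻¹ ∈ D) :
    ∀ a ∈ A, a * a = j → n * a * n⁻¹ ∈ D := by
  intro a ha haj
  obtain ⟨g, hg, rfl⟩ := h.conjA a₁ ha₁ a ha ha₁j haj
  have e : n * (g * a₁ * g⁻¹) * n⁻¹ = (n * g * n⁻¹) * (n * a₁ * n⁻¹) * (n * g * n⁻¹)⁻¹ := by
    group
  rw [e]
  exact hD _ (hnM g (Subgroup.mem_sup_left hg)) _ hna

theorem QuartPair.stab_of_class (h : QuartPair A B j) (n : G)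
    (hn'M : ∀ x ∈ A ⊔ B, n⁻¹ * x * n ∈ A ⊔ B)
    (hB : ∀ a ∈ B, a * a = j → n * a * n⁻¹ ∈ B) :
    ∀ x ∈ A, n⁻¹ * x * n ∈ A := by
  intro x hx
  obtain ⟨y₁, hy₁, y₂, hy₂, hy⟩ := h.exists_mul (hn'M x (Subgroup.mem_sup_left hx))
  have hy₂' : y₂ = 1 ∨ y₂ = j := by
    apply h.centB y₂ hy₂
    intro a ha haj
    have c1 := h.comm x hx _ (hB a ha haj)
    have c2 : (n⁻¹ * x * n) * a = a * (n⁻¹ * x * n) := by
      calc n⁻¹ * x * n * a = n⁻¹ * (x * (n * a * n⁻¹)) * n := by group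
        _ = n⁻¹ * ((n * a * n⁻¹) * x) * n := by rw [c1]
        _ = a * (n⁻¹ * x * n) := by group
    rw [hy] at c2
    have c3 := h.comm y₁ hy₁ a ha
    have : y₁ * (y₂ * a) = y₁ * (a * y₂) := by
      calc y₁ * (y₂ * a) = y₁ * y₂ * a := by group
        _ = a * (y₁ * y₂) := c2
        _ = (a * y₁) * y₂ := by group
        _ = (y₁ * a) * y₂ := by rw [c3]
        _ = y₁ * (a * y₂) := by group
    exact mul_left_cancel this
  rw [hy]
  rcases hy₂' with h2 | h2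
  · rw [h2, mul_one]; exact hy₁
  · rw [h2]; exact A.mul_mem hy₁ h.memA

theorem QuartPair.swap_of_class (h : QuartPair A B j) (n : G)
    (hn'M : ∀ x ∈ A ⊔ B, n⁻¹ * x * n ∈ A ⊔ B)
    (hA : ∀ a ∈ A, a * a = j → n * a * n⁻¹ ∈ B) :
    ∀ x ∈ A, n⁻¹ * x * n ∈ B := by
  intro x hx
  obtain ⟨y₁, hy₁, y₂, hy₂, hy⟩ := h.exists_mul (hn'M x (Subgroup.mem_sup_left hx))
  have hy₁' : y₁ = 1 ∨ y₁ = j := by
    apply h.centA y₁ hy₁
    intro a ha haj
    have c1 := h.comm x hx _ (hA a ha haj)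
    have c2 : (n⁻¹ * x * n) * a = a * (n⁻¹ * x * n) := by
      calc n⁻¹ * x * n * a = n⁻¹ * (x * (n * a * n⁻¹)) * n := by group
        _ = n⁻¹ * ((n * a * n⁻¹) * x) * n := by rw [c1]
        _ = a * (n⁻¹ * x * n) := by group
    rw [hy] at c2
    have c3 := h.comm a ha y₂ hy₂
    have : (y₁ * a) * y₂ = (a * y₁) * y₂ := by
      calc y₁ * a * y₂ = y₁ * (a * y₂) := by group
        _ = y₁ * (y₂ * a) := by rw [c3]
        _ = y₁ * y₂ * a := by group
        _ = a * (y₁ * y₂) := c2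
        _ = a * y₁ * y₂ := by group
    exact mul_right_cancel this
  rw [hy]
  rcases hy₁' with h2 | h2
  · rw [h2, one_mul]; exact hy₂
  · rw [h2]; exact B.mul_mem h.memB hy₂

theorem QuartPair.not_both_to_A (h : QuartPair A B j) (n : G)
    (hn'M : ∀ x ∈ A ⊔ B, n⁻¹ * x * n ∈ A ⊔ B)
    {a₁ a₂ : G} (ha₁ : a₁ ∈ A) (ha₁j : a₁ * a₁ = j) (ha₂ : a₂ ∈ B) (ha₂j : a₂ * a₂ = j)
    (hnj : n * j * n⁻¹ = j)
    (h1 : n * a₁ * n⁻¹ ∈ A) (h2 : n * a₂ * n⁻¹ ∈ A) : False := by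
  have s1 : (n * a₁ * n⁻¹) * (n * a₁ * n⁻¹) = j := by
    calc (n * a₁ * n⁻¹) * (n * a₁ * n⁻¹) = n * (a₁ * a₁) * n⁻¹ := by group
      _ = j := by rw [ha₁j, hnj]
  have s2 : (n * a₂ * n⁻¹) * (n * a₂ * n⁻¹) = j := by
    calc (n * a₂ * n⁻¹) * (n * a₂ * n⁻¹) = n * (a₂ * a₂) * n⁻¹ := by group
      _ = j := by rw [ha₂j, hnj]
  obtain ⟨g, hg, hgc⟩ := h.conjA _ h1 _ h2 s1 s2
  have e : a₂ = (n⁻¹ * g * n) * a₁ * (n⁻¹ * g * n)⁻¹ := by
    calc a₂ = n⁻¹ * (n * a₂ * n⁻¹) * n := by group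
      _ = n⁻¹ * (g * (n * a₁ * n⁻¹) * g⁻¹) * n := by rw [hgc]
      _ = (n⁻¹ * g * n) * a₁ * (n⁻¹ * g * n)⁻¹ := by group
  have : a₂ ∈ A := by
    rw [e]
    exact h.conj_memA (hn'M g (Subgroup.mem_sup_left hg)) ha₁
  exact h.not_mem_both this ha₂ ha₂j

/-- an element normalizing `A ⊔ B` and centralizing `j` either normalizes both factors or
swaps them -/
theorem QuartPair.normalizes_or_swaps (h : QuartPair A B j) (n : G)
    (hnM : ∀ x ∈ A ⊔ B, n * x * n⁻¹ ∈ A ⊔ B)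
    (hn'M : ∀ x ∈ A ⊔ B, n⁻¹ * x * n ∈ A ⊔ B)
    (hnj : n * j * n⁻¹ = j) :
    ((∀ x ∈ A, n⁻¹ * x * n ∈ A) ∧ (∀ x ∈ B, n⁻¹ * x * n ∈ B)) ∨
    ((∀ x ∈ A, n⁻¹ * x * n ∈ B) ∧ (∀ x ∈ B, n⁻¹ * x * n ∈ A)) := by
  obtain ⟨a₁, ha₁, ha₁j⟩ := h.exA
  obtain ⟨a₂, ha₂, ha₂j⟩ := h.exB
  have s1 : (n * a₁ * n⁻¹) * (n * a₁ * n⁻¹) = j := by
    calc (n * a₁ * n⁻¹) * (n * a₁ * n⁻¹) = n * (a₁ * a₁) * n⁻¹ := by group
      _ = j := by rw [ha₁j, hnj]
  have s2 : (n * a₂ * n⁻¹) * (n * a₂ * n⁻¹) = j := by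
    calc (n * a₂ * n⁻¹) * (n * a₂ * n⁻¹) = n * (a₂ * a₂) * n⁻¹ := by group
      _ = j := by rw [ha₂j, hnj]
  have hBA : B ⊔ A = A ⊔ B := sup_comm _ _
  have hnM' : ∀ x ∈ B ⊔ A, n * x * n⁻¹ ∈ B ⊔ A := by rw [hBA]; exact hnM
  have hn'M' : ∀ x ∈ B ⊔ A, n⁻¹ * x * n ∈ B ⊔ A := by rw [hBA]; exact hn'M
  rcases h.mem_or_mem_of_sq (hnM a₁ (Subgroup.mem_sup_left ha₁)) s1 with c1 | c1 <;>
  rcases h.mem_or_mem_of_sq (hnM a₂ (Subgroup.mem_sup_right ha₂)) s2 with c2 | c2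
  · exact (h.not_both_to_A n hn'M ha₁ ha₁j ha₂ ha₂j hnj c1 c2).elim
  · left
    have tA := h.conj_class A (fun m hm d hd => h.conj_memA hm hd) n hnM ha₁ ha₁j c1
    have tB := h.symm.conj_class B (fun m hm d hd => h.conj_memB (hBA ▸ hm) hd) n hnM'
      ha₂ ha₂j c2
    exact ⟨h.stab_of_class n hn'M tB, h.symm.stab_of_class n hn'M' tA⟩
  · right
    have tA := h.conj_class B (fun m hm d hd => h.conj_memB hm hd) n hnM ha₁ ha₁j c1
    have tB := h.symm.conj_class A (fun m hm d hd => h.conj_memA (hBA ▸ hm) hd) n hnM'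
      ha₂ ha₂j c2
    exact ⟨h.swap_of_class n hn'M tA, h.symm.swap_of_class n hn'M' tB⟩
  · exact (h.symm.not_both_to_A n hn'M' ha₂ ha₂j ha₁ ha₁j hnj c2 c1).elim

end pair

section main

theorem mul_sq_sub_one_inj {a b : ℕ} (ha : 1 ≤ a) (hb : 1 ≤ b)
    (h : a * (a ^ 2 - 1) = b * (b ^ 2 - 1)) : a = b := by
  have key : ∀ x y : ℕ, 1 ≤ x → x < y → x * (x ^ 2 - 1) < y * (y ^ 2 - 1) := by
    intro x y hx hxy
    have h1 : x ^ 2 - 1 ≤ y ^ 2 - 1 := Nat.sub_le_sub_right (Nat.pow_le_pow_left hxy.le 2) 1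
    have h2 : 0 < y ^ 2 - 1 := by
      have h3 : 2 ≤ y := by omega
      have h4 : 4 ≤ y ^ 2 := by nlinarith
      omega
    calc x * (x ^ 2 - 1) ≤ x * (y ^ 2 - 1) := Nat.mul_le_mul_left x h1
      _ < y * (y ^ 2 - 1) := Nat.mul_lt_mul_of_pos_right hxy h2
  rcases lt_trichotomy a b with h' | h' | h'
  · exact absurd h (key a b ha h').ne
  · exact h'
  · exact absurd h (key b a hb h').ne'

theorem quartPair_of_sl2 {G : Type*} [Group G]
    {F₁ : Type*} [Field F₁] [Fintype F₁] {F₂ : Type*} [Field F₂] [Fintype F₂]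
    (hF₁ : Odd (Fintype.card F₁)) (hF₂ : Odd (Fintype.card F₂)) (L₁ L₂ : Subgroup G)
    (e₁ : ↥L₁ ≃* Matrix.SpecialLinearGroup (Fin 2) F₁)
    (e₂ : ↥L₂ ≃* Matrix.SpecialLinearGroup (Fin 2) F₂)
    (hc : ∀ x ∈ L₁, ∀ y ∈ L₂, x * y = y * x) (j : G) (hj : orderOf j = 2)
    (hm : L₁ ⊓ L₂ = Subgroup.zpowers j) : QuartPair L₁ L₂ j := by
  have hj2 : j * j = 1 := by
    have := pow_orderOf_eq_one j
    rw [hj, pow_two] at this
    exact this
  have hj1 : j ≠ 1 := by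
    intro h
    rw [h, orderOf_one] at hj
    omega
  have hjm : j ∈ L₁ ⊓ L₂ := by
    rw [hm]
    exact Subgroup.mem_zpowers j
  have hz : ∀ t ∈ L₁ ⊓ L₂, t = 1 ∨ t = j := by
    intro t ht
    rw [hm] at ht
    obtain ⟨k, rfl⟩ := Subgroup.mem_zpowers_iff.mp ht
    rcases Int.emod_two_eq_zero_or_one k with h | h
    · left
      have : k = 2 * (k / 2) := by omega
      rw [this, _root_.zpow_mul, zpow_ofNat, pow_two, hj2, _root_.one_zpow]
    · right
      have : k = 2 * (k / 2) + 1 := by omega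
      rw [this, _root_.zpow_add, _root_.zpow_mul, zpow_ofNat, pow_two, hj2, _root_.one_zpow, one_mul, _root_.zpow_one]
  obtain ⟨i1, x1, c1, z1⟩ := sl2_sub_props hF₁ L₁ e₁ j hjm.1 hj2 hj1
  obtain ⟨i2, x2, c2, z2⟩ := sl2_sub_props hF₂ L₂ e₂ j hjm.2 hj2 hj1
  exact { comm := hc, inter := fun t h1 h2 => hz t ⟨h1, h2⟩, memA := hjm.1, memB := hjm.2,
          jj := hj2, j1 := hj1, invA := i1, invB := i2, exA := x1, exB := x2, conjA := c1,
          conjB := c2, centA := z1, centB := z2 }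

/-- `L₁ ≅ SL₂(q₁)`, `L₂ ≅ SL₂(q₂)` commuting, meeting in `⟨j⟩`, `L₁L₂` of index 2 in `C(j)`:
an element of `C(j)` outside `L₁L₂` normalizes both or swaps them. -/
theorem sl2_pair_normalizes_or_swaps {G : Type*} [Group G] [Finite G]
    {F₁ : Type*} [Field F₁] [Fintype F₁] {F₂ : Type*} [Field F₂] [Fintype F₂]
    (hF₁ : Odd (Fintype.card F₁)) (hF₂ : Odd (Fintype.card F₂)) (L₁ L₂ : Subgroup G)
    (e₁ : ↥L₁ ≃* Matrix.SpecialLinearGroup (Fin 2) F₁)
    (e₂ : ↥L₂ ≃* Matrix.SpecialLinearGroup (Fin 2) F₂)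
    (hc : ∀ x ∈ L₁, ∀ y ∈ L₂, x * y = y * x) (j : G) (hj : orderOf j = 2)
    (hm : L₁ ⊓ L₂ = Subgroup.zpowers j)
    (hle : L₁ ⊔ L₂ ≤ Subgroup.centralizer ({j} : Set G))
    (hi : (L₁ ⊔ L₂).relIndex (Subgroup.centralizer ({j} : Set G)) = 2) (n : G)
    (hn : n ∈ Subgroup.centralizer ({j} : Set G)) (hn' : n ∉ L₁ ⊔ L₂) :
    (L₁.map (MulAut.conj n).toMonoidHom = L₁ ∧ L₂.map (MulAut.conj n).toMonoidHom = L₂) ∨
      (L₁.map (MulAut.conj n).toMonoidHom = L₂ ∧ Fintype.card F₁ = Fintype.card F₂ ∧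
        ∃ n' ∈ Subgroup.centralizer ({j} : Set G), n' ∉ L₁ ⊔ L₂ ∧
          L₁.map (MulAut.conj n').toMonoidHom = L₂ ∧ n' ^ 2 ∈ Subgroup.zpowers j) := by
  have hP := quartPair_of_sl2 hF₁ hF₂ L₁ L₂ e₁ e₂ hc j hj hm
  have hnorm : ((L₁ ⊔ L₂).subgroupOf (Subgroup.centralizer ({j} : Set G))).Normal :=
    Subgroup.normal_of_index_eq_two hi
  have hconjM : ∀ g ∈ Subgroup.centralizer ({j} : Set G), ∀ x ∈ L₁ ⊔ L₂,
      g * x * g⁻¹ ∈ L₁ ⊔ L₂ := by
    intro g hg x hx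
    have := hnorm.conj_mem ⟨x, hle hx⟩ (by rw [Subgroup.mem_subgroupOf]; exact hx) ⟨g, hg⟩
    rw [Subgroup.mem_subgroupOf] at this
    simpa using this
  have hnM : ∀ x ∈ L₁ ⊔ L₂, n * x * n⁻¹ ∈ L₁ ⊔ L₂ := hconjM n hn
  have hn'M : ∀ x ∈ L₁ ⊔ L₂, n⁻¹ * x * n ∈ L₁ ⊔ L₂ := by
    intro x hx
    have := hconjM n⁻¹ (Subgroup.inv_mem _ hn) x hx
    rwa [inv_inv] at this
  have hnj : n * j * n⁻¹ = j := by
    have := Subgroup.mem_centralizer_iff.mp hn j (Set.mem_singleton j)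
    rw [← this]
    group
  have hmap : ∀ (g : G) (H K : Subgroup G), (∀ x ∈ K, g⁻¹ * x * g ∈ H) →
      K ≤ H.map (MulAut.conj g).toMonoidHom := by
    intro g H K hK x hx
    refine Subgroup.mem_map.mpr ⟨g⁻¹ * x * g, hK x hx, ?_⟩
    simp only [MulEquiv.toMonoidHom_eq_coe, MonoidHom.coe_coe, MulAut.conj_apply]
    group
  have hcard : ∀ (g : G) (H : Subgroup G),
      Nat.card (H.map (MulAut.conj g).toMonoidHom) = Nat.card H := by
    intro g H
    exact Subgroup.card_map_of_injective (MulAut.conj g).injective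
  rcases hP.normalizes_or_swaps n hnM hn'M hnj with ⟨h1, h2⟩ | ⟨h1, h2⟩
  · left
    constructor
    · exact (Subgroup.eq_of_le_of_card_ge (hmap n L₁ L₁ h1) (by rw [hcard])).symm
    · exact (Subgroup.eq_of_le_of_card_ge (hmap n L₂ L₂ h2) (by rw [hcard])).symm
  · right
    have le1 : L₂ ≤ L₁.map (MulAut.conj n).toMonoidHom := hmap n L₁ L₂ h2
    have le2 : L₁ ≤ L₂.map (MulAut.conj n).toMonoidHom := hmap n L₂ L₁ h1
    have c1 : Nat.card L₂ ≤ Nat.card L₁ := by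
      have := Subgroup.card_le_of_le le1
      rwa [hcard] at this
    have c2 : Nat.card L₁ ≤ Nat.card L₂ := by
      have := Subgroup.card_le_of_le le2
      rwa [hcard] at this
    have ceq : Nat.card L₁ = Nat.card L₂ := le_antisymm c2 c1
    have m1 : L₁.map (MulAut.conj n).toMonoidHom = L₂ :=
      (Subgroup.eq_of_le_of_card_ge le1 (by rw [hcard, ceq])).symm
    have m2 : L₂.map (MulAut.conj n).toMonoidHom = L₁ :=
      (Subgroup.eq_of_le_of_card_ge le2 (by rw [hcard, ceq])).symm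
    refine ⟨m1, ?_, ?_⟩
    · have k1 : Nat.card L₁ = Fintype.card F₁ * (Fintype.card F₁ ^ 2 - 1) := by
        rw [Nat.card_congr e₁.toEquiv, Cfsg.Agent.Lib.Helper5.card_SL2]
      have k2 : Nat.card L₂ = Fintype.card F₂ * (Fintype.card F₂ ^ 2 - 1) := by
        rw [Nat.card_congr e₂.toEquiv, Cfsg.Agent.Lib.Helper5.card_SL2]
      rw [k1, k2] at ceq
      exact mul_sq_sub_one_inj Fintype.card_pos Fintype.card_pos ceq
    · have hnn : n * n ∈ L₁ ⊔ L₂ := by
        have := Subgroup.mul_self_mem_of_index_two hi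
          (⟨n, hn⟩ : Subgroup.centralizer ({j} : Set G))
        rw [Subgroup.mem_subgroupOf] at this
        simpa using this
      obtain ⟨a, ha, b, hb, hab⟩ := hP.exists_mul hnn
      have hφa : n * a * n⁻¹ ∈ L₂ := by
        rw [← m1]
        exact Subgroup.mem_map.mpr ⟨a, ha, by simp [MulAut.conj_apply]⟩
      have hφb : n * b * n⁻¹ ∈ L₁ := by
        rw [← m2]
        exact Subgroup.mem_map.mpr ⟨b, hb, by simp [MulAut.conj_apply]⟩
      have e1 : a * b = (n * a * n⁻¹) * (n * b * n⁻¹) := by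
        calc a * b = n * n := hab.symm
          _ = n * (n * n) * n⁻¹ := by group
          _ = n * (a * b) * n⁻¹ := by rw [hab]
          _ = (n * a * n⁻¹) * (n * b * n⁻¹) := by group
      have c3 := hc a ha _ hφa
      have hw2 : (n * a * n⁻¹)⁻¹ * b ∈ L₂ := L₂.mul_mem (L₂.inv_mem hφa) hb
      have hw1 : (n * a * n⁻¹)⁻¹ * b ∈ L₁ := by
        have e2 : b = a⁻¹ * ((n * a * n⁻¹) * (n * b * n⁻¹)) := by
          rw [← e1]
          group
        have : (n * a * n⁻¹)⁻¹ * b = a⁻¹ * (n * b * n⁻¹) := by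
          calc (n * a * n⁻¹)⁻¹ * b
              = (n * a * n⁻¹)⁻¹ * (a⁻¹ * ((n * a * n⁻¹) * (n * b * n⁻¹))) := by rw [← e2]
            _ = (a * (n * a * n⁻¹))⁻¹ * (n * a * n⁻¹) * (n * b * n⁻¹) := by group
            _ = ((n * a * n⁻¹) * a)⁻¹ * (n * a * n⁻¹) * (n * b * n⁻¹) := by rw [c3]
            _ = a⁻¹ * (n * b * n⁻¹) := by group
        rw [this]
        exact L₁.mul_mem (L₁.inv_mem ha) hφb
      have hsq : (a⁻¹ * n) ^ 2 = (n * a * n⁻¹)⁻¹ * b := by
        calc (a⁻¹ * n) ^ 2 = a⁻¹ * (n * a * n⁻¹)⁻¹ * (n * n) := by rw [pow_two]; group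
          _ = a⁻¹ * (n * a * n⁻¹)⁻¹ * (a * b) := by rw [hab]
          _ = ((n * a * n⁻¹) * a)⁻¹ * a * b := by group
          _ = (a * (n * a * n⁻¹))⁻¹ * a * b := by rw [c3]
          _ = (n * a * n⁻¹)⁻¹ * b := by group
      refine ⟨a⁻¹ * n, ?_, ?_, ?_, ?_⟩
      · exact Subgroup.mul_mem _ (Subgroup.inv_mem _ (hle (Subgroup.mem_sup_left ha))) hn
      · intro h
        apply hn'
        have : n = a * (a⁻¹ * n) := by group
        rw [this]
        exact Subgroup.mul_mem _ (Subgroup.mem_sup_left ha) h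
      · refine (Subgroup.eq_of_le_of_card_ge (hmap (a⁻¹ * n) L₁ L₂ ?_)
          (by rw [hcard, ceq])).symm
        intro x hx
        have c4 := hc a ha x hx
        have : (a⁻¹ * n)⁻¹ * x * (a⁻¹ * n) = n⁻¹ * x * n := by
          calc (a⁻¹ * n)⁻¹ * x * (a⁻¹ * n) = n⁻¹ * (a * x) * a⁻¹ * n := by group
            _ = n⁻¹ * (x * a) * a⁻¹ * n := by rw [c4]
            _ = n⁻¹ * x * n := by group
        rw [this]
        exact h2 x hx
      · rw [hsq, ← hm]
        exact ⟨hw1, hw2⟩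

end main

end Cfsg.Agent.Lib.Helper53
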